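import Groth.Agent.FlatA.LocalCriterion
import Groth.Agent.Flat2C.FlatAt
import Mathlib.RingTheory.RingHom.Flat
import Mathlib.RingTheory.Flat.FaithfullyFlat.Basic
import Mathlib.RingTheory.LocalRing.RingHom.Basic
import Mathlib.LinearAlgebra.TensorProduct.Basic

/-!
# Flatness and formally isomorphic extensions of local rings

A commutative square of local homomorphisms `A → B`, `A → A'`, `B → B'`, `A' → B'`.

* `flat_upper`: if `A → B` and `B → B'` are flat, `A', B'` Noetherian and `A/m^n → A'/m^n A'` is
  surjective for all `n` (with `m A'` the maximal ideal and `m^n A' ∩ A = m^n`), then `A' → B'` is flat.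
* `flat_lower`: if `A → A'`, `A' → B'` are flat and `B → B'` is faithfully flat then `A → B` is flat.
-/

set_option autoImplicit false

namespace Groth.Agent.Gaga.H988.FlatSquare

open TensorProduct IsLocalRing

section upper

variable {A A' B' : Type*} [CommRing A] [CommRing A'] [CommRing B'] [Algebra A A'] [Algebra A' B']
  [Algebra A B'] [IsScalarTower A A' B']

/-- If `A → C = A' / J A'` is surjective then `C ⊗_A B' = C ⊗_{A'} B'`. -/
theorem flat_quotient_of_surjective (J : Ideal A)
    (hs : ∀ a' : A', ∃ a : A, algebraMap A A' a - a' ∈ J.map (algebraMap A A'))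
    (hflat : Module.Flat A B') :
    Module.Flat (A' ⧸ J.map (algebraMap A A')) ((A' ⧸ J.map (algebraMap A A')) ⊗[A'] B') := by
  set C := A' ⧸ J.map (algebraMap A A') with hC
  have hcomp : TensorProduct.CompatibleSMul A A' C B' := by
    refine ⟨fun a' c b => ?_⟩
    obtain ⟨a, ha⟩ := hs a'
    have key : ∀ z : A', z ∈ J.map (algebraMap A A') → ∀ (c : C) (b : B'),
        c ⊗ₜ[A] (z • b) = 0 := by
      intro z hz
      refine Submodule.span_induction (p := fun z _ => ∀ (c : C) (b : B'), c ⊗ₜ[A] (z • b) = 0)
        ?_ ?_ ?_ ?_ hz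
      · rintro _ ⟨j, hj, rfl⟩ c b
        rw [algebraMap_smul, ← TensorProduct.smul_tmul]
        have h0 : j • c = 0 := by
          obtain ⟨c, rfl⟩ := Ideal.Quotient.mk_surjective c
          rw [← algebraMap_smul A' j, Algebra.smul_def, Ideal.Quotient.algebraMap_eq,
            ← map_mul, Ideal.Quotient.eq_zero_iff_mem]
          exact Ideal.mul_mem_right _ _ (Ideal.mem_map_of_mem _ hj)
        rw [h0, TensorProduct.zero_tmul]
      · intro c b; rw [zero_smul, TensorProduct.tmul_zero]
      · intro x y _ _ hx hy c b
        rw [add_smul, TensorProduct.tmul_add, hx, hy, add_zero]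
      · intro r x _ hx c b
        rw [smul_eq_mul, mul_comm, mul_smul]
        exact hx c (r • b)
    have h1 : a' • c = a • c := by
      obtain ⟨c, rfl⟩ := Ideal.Quotient.mk_surjective c
      rw [← algebraMap_smul A' a, Algebra.smul_def, Algebra.smul_def, Ideal.Quotient.algebraMap_eq,
        ← map_mul, ← map_mul, Ideal.Quotient.eq, ← sub_mul]
      have := neg_mem ha
      rw [neg_sub] at this
      exact Ideal.mul_mem_right _ _ this
    have h2 : a' • b = a • b - (algebraMap A A' a - a') • b := by
      rw [sub_smul, algebraMap_smul]; abel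
    rw [h1, h2, TensorProduct.tmul_sub, key _ ha, sub_zero, TensorProduct.smul_tmul]
  have e := TensorProduct.equivOfCompatibleSMul A A' C C B'
  exact Module.Flat.of_linearEquiv e

/-- Local criterion across a formally isomorphic change of base: if `A → A'` is surjective modulo all
powers of the maximal ideal `m A' = m'` and `B'` is flat over `A`, then `B'` is flat over `A'`. -/
theorem flat_upper [IsLocalRing A] [IsLocalRing A'] [IsLocalRing B'] [IsNoetherianRing A']
    [IsNoetherianRing B'] [IsLocalHom (algebraMap A' B')]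
    (hm : (maximalIdeal A).map (algebraMap A A') = maximalIdeal A')
    (hs : ∀ (n : ℕ) (a' : A'), ∃ a : A, algebraMap A A' a - a' ∈ maximalIdeal A' ^ n)
    (hflat : Module.Flat A B') : Module.Flat A' B' := by
  refine Groth.Agent.FlatA.LocalCriterion.flat_of_forall_flat_quotient_pow (B := B')
    (maximalIdeal A') ?_ ?_
  · have hloc : (maximalIdeal A').map (algebraMap A' B') ≤ maximalIdeal B' :=
      ((IsLocalRing.local_hom_TFAE (algebraMap A' B')).out 0 2).1 ‹_›
    exact hloc.trans (IsLocalRing.maximalIdeal_le_jacobson _)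
  · intro n _
    have h1 : maximalIdeal A' ^ n = (maximalIdeal A ^ n).map (algebraMap A A') := by
      rw [Ideal.map_pow, hm]
    rw [h1]
    exact flat_quotient_of_surjective (maximalIdeal A ^ n)
      (fun a' => by rw [← h1]; exact hs n a') hflat

end upper

section hom

variable {A B A' B' : Type*} [CommRing A] [CommRing B] [CommRing A'] [CommRing B']

/-- `flat_upper` for ring homomorphisms. -/
theorem ringHom_flat_upper [IsLocalRing A] [IsLocalRing A'] [IsLocalRing B'] [IsNoetherianRing A']
    [IsNoetherianRing B'] (f : A →+* B) (f' : A' →+* B') (a : A →+* A') (b : B →+* B')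
    (hsq : f'.comp a = b.comp f) (hf' : IsLocalHom f')
    (hm : (maximalIdeal A).map a = maximalIdeal A')
    (hs : ∀ (n : ℕ) (z : A'), ∃ y : A, a y - z ∈ maximalIdeal A' ^ n)
    (hf : f.Flat) (hb : b.Flat) : f'.Flat := by
  algebraize [f', a, f'.comp a]
  have h1 : (f'.comp a).Flat := by rw [hsq]; exact hf.comp hb
  exact flat_upper (A := A) (A' := A') (B' := B') hm hs h1

/-- Descent: if `A → A' → B'` is flat and `B → B'` is faithfully flat then `A → B` is flat. -/
theorem ringHom_flat_lower [IsLocalRing B] [IsLocalRing B'] (f : A →+* B) (f' : A' →+* B')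
    (a : A →+* A') (b : B →+* B')
    (hsq : f'.comp a = b.comp f) (hb' : IsLocalHom b)
    (hb : b.Flat) (ha : a.Flat) (hf' : f'.Flat) : f.Flat := by
  have h1 : (b.comp f).Flat := by rw [← hsq]; exact ha.comp hf'
  algebraize [f, b, b.comp f]
  have h3 : Module.FaithfullyFlat B B' := Module.FaithfullyFlat.of_flat_of_isLocalHom
  have h2 : Module.Flat A (B' ⊗[B] B) :=
    Module.Flat.of_linearEquiv ((TensorProduct.AlgebraTensorModule.rid B B B').restrictScalars A)
  exact Groth.Agent.Flat2C.FlatAt.flat_of_flat_tensor (R := A) (S := B) B' B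

end hom

end Groth.Agent.Gaga.H988.FlatSquare
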