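import Groth.Prelude.Def_AnHol
import Groth.Agent.An.H863.PtsBasic
import Groth.Agent.UnramA.MonoEndo
import Groth.Agent.Gaga.H988.FlatSquare
import Mathlib.AlgebraicGeometry.Morphisms.Flat
import Mathlib.RingTheory.RingHom.Flat
import Mathlib.Geometry.RingedSpace.Stalks

/-!
# The commutative square of stalk maps of `X^an → Y^an`, `X → Y`

* `anMap_comp_anToScheme`: `X^an → Y^an → Y` is `X^an → X → Y`;
* `stalk_square`: the square of stalk maps;
* `flat_iff_of_inputs`: flat `f` iff flat `f^an`, from: the comparison maps of stalks `φ_x` are flat,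
  `m φ_x` is the unique maximal ideal, `φ_y` is surjective modulo powers of `m`, and the
  stalks of the sheaf of holomorphic functions are Noetherian.
-/

set_option autoImplicit false
open CategoryTheory AlgebraicGeometry Topology TopologicalSpace Opposite IsLocalRing

noncomputable section

namespace Groth.Agent.Gaga.H988.StalkSquare

variable {X Y : Scheme.{0}} [X.Over An.SC] [Y.Over An.SC]

/-- The map of stalks `O_{X,x} → hol_{X,x}`. -/
abbrev phi (x : An.Pts X) : X.presheaf.stalk x.pt →+* (An.anSpace X).presheaf.stalk x :=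
  (PresheafedSpace.Hom.stalkMap (An.anToScheme X) x).hom

/-- The map of stalks `hol_{Y,f(x)} → hol_{X,x}`. -/
abbrev anStalk (f : X ⟶ Y) [f.IsOver An.SC] (x : An.Pts X) :
    (An.anSpace Y).presheaf.stalk (An.Pts.map f x) →+* (An.anSpace X).presheaf.stalk x :=
  (PresheafedSpace.Hom.stalkMap (An.anMap f) x).hom

/-- The map of stalks `O_{Y,f(x)} → O_{X,x}`. -/
abbrev algStalk (f : X ⟶ Y) [f.IsOver An.SC] (x : An.Pts X) :
    Y.presheaf.stalk (An.Pts.map f x).pt →+* X.presheaf.stalk x.pt :=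
  ((Y.presheaf.stalkSpecializes (specializes_of_eq (An.Pts.pt_map f x).symm)) ≫ f.stalkMap x.pt).hom

/-- The square of stalk maps commutes. -/
theorem stalk_square (f : X ⟶ Y) [f.IsOver An.SC] (x : An.Pts X) :
    (anStalk f x).comp (phi (An.Pts.map f x)) = (phi x).comp (algStalk f x) := by
  suffices h : PresheafedSpace.Hom.stalkMap (An.anToScheme Y) (An.Pts.map f x) ≫
      PresheafedSpace.Hom.stalkMap (An.anMap f) x =
      ((Y.presheaf.stalkSpecializes (specializes_of_eq (An.Pts.pt_map f x).symm)) ≫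
        f.stalkMap x.pt) ≫ PresheafedSpace.Hom.stalkMap (An.anToScheme X) x from
    congrArg CommRingCat.Hom.hom h
  refine TopCat.Presheaf.stalk_hom_ext _ fun U hU => ?_
  have hU' : f x.pt ∈ U := by
    have h := hU
    change (An.Pts.map f x).pt ∈ U at h
    rwa [An.Pts.pt_map] at h
  have e1 := PresheafedSpace.stalkMap_germ (An.anToScheme Y) U (An.Pts.map f x) hU
  have e2 := PresheafedSpace.stalkMap_germ (An.anMap f) ((An.baseF Y).obj U) x hU
  have e3 := PresheafedSpace.stalkMap_germ (An.anToScheme X) (f ⁻¹ᵁ U) x hU'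
  have e4 := f.germ_stalkMap U x.pt hU'
  have e5 := Y.presheaf.germ_stalkSpecializes (U := U) hU' (specializes_of_eq (An.Pts.pt_map f x).symm)
  have l1 : Y.presheaf.germ U (An.Pts.map f x).pt hU ≫
      (PresheafedSpace.Hom.stalkMap (An.anToScheme Y) (An.Pts.map f x) ≫
        PresheafedSpace.Hom.stalkMap (An.anMap f) x) =
      (An.anToScheme Y).c.app (op U) ≫ (An.anMap f).c.app (op ((An.baseF Y).obj U)) ≫
        (An.anSpace X).presheaf.germ ((An.mapF f).obj ((An.baseF Y).obj U)) x hU := by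
    refine (Category.assoc _ _ _).symm.trans ?_
    refine (congrArg (· ≫ PresheafedSpace.Hom.stalkMap (An.anMap f) x) e1).trans ?_
    refine (Category.assoc _ _ _).trans ?_
    exact congrArg ((An.anToScheme Y).c.app (op U) ≫ ·) e2
  have l2 : Y.presheaf.germ U (An.Pts.map f x).pt hU ≫
      ((Y.presheaf.stalkSpecializes (specializes_of_eq (An.Pts.pt_map f x).symm)) ≫
        f.stalkMap x.pt) ≫ PresheafedSpace.Hom.stalkMap (An.anToScheme X) x =
      f.app U ≫ (An.anToScheme X).c.app (op (f ⁻¹ᵁ U)) ≫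
        (An.anSpace X).presheaf.germ ((An.baseF X).obj (f ⁻¹ᵁ U)) x hU' := by
    have e6 : Y.presheaf.germ U (An.Pts.map f x).pt hU ≫
        (Y.presheaf.stalkSpecializes (specializes_of_eq (An.Pts.pt_map f x).symm) ≫
          f.stalkMap x.pt) = f.app U ≫ X.presheaf.germ (f ⁻¹ᵁ U) x.pt hU' := by
      rw [← Category.assoc, ← e4]
      congr 1
    refine (Category.assoc _ _ _).symm.trans ?_
    refine (congrArg (· ≫ PresheafedSpace.Hom.stalkMap (An.anToScheme X) x) e6).trans ?_
    refine (Category.assoc _ _ _).trans ?_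
    exact congrArg (f.app U ≫ ·) e3
  refine l1.trans (Eq.trans ?_ l2.symm)
  have l3 : (An.anToScheme Y).c.app (op U) ≫ (An.anMap f).c.app (op ((An.baseF Y).obj U)) =
      (f.app U ≫ (An.anToScheme X).c.app (op (f ⁻¹ᵁ U)) :) := by
    ext g
    apply Subtype.ext
    funext z
    have h : (An.Pts.map f z.1).pt ∈ U := by rw [An.Pts.pt_map]; exact z.2
    exact An.Pts.ev_map f z.1 U h g
  have l4 : (An.anToScheme Y).c.app (op U) ≫ (An.anMap f).c.app (op ((An.baseF Y).obj U)) ≫
        (An.anSpace X).presheaf.germ ((An.mapF f).obj ((An.baseF Y).obj U)) x hU =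
      (f.app U ≫ (An.anToScheme X).c.app (op (f ⁻¹ᵁ U))) ≫
        (An.anSpace X).presheaf.germ ((An.mapF f).obj ((An.baseF Y).obj U)) x hU := by
    rw [← l3]; rfl
  exact l4

/-- The local form of (a) of S4314: `m·hol_x` is the unique maximal ideal of `hol_x`. -/
def UniqMax (x : An.Pts X) : Prop :=
  ((maximalIdeal (X.presheaf.stalk x.pt)).map (phi x)).IsMaximal ∧
    ∀ I : Ideal ((An.anSpace X).presheaf.stalk x), I.IsMaximal →
      I = (maximalIdeal (X.presheaf.stalk x.pt)).map (phi x)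

theorem isLocalRing_of_uniqMax {x : An.Pts X} (h : UniqMax x) :
    IsLocalRing ((An.anSpace X).presheaf.stalk x) :=
  IsLocalRing.of_unique_max_ideal ⟨_, h.1, h.2⟩

theorem maximalIdeal_of_uniqMax {x : An.Pts X} (h : UniqMax x)
    [IsLocalRing ((An.anSpace X).presheaf.stalk x)] :
    (maximalIdeal (X.presheaf.stalk x.pt)).map (phi x) =
      maximalIdeal ((An.anSpace X).presheaf.stalk x) :=
  IsLocalRing.eq_maximalIdeal h.1

theorem isLocalHom_phi {x : An.Pts X} (h : UniqMax x) : IsLocalHom (phi x) := by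
  have := isLocalRing_of_uniqMax h
  refine ((IsLocalRing.local_hom_TFAE (phi x)).out 0 2).2 ?_
  rw [maximalIdeal_of_uniqMax h]

instance isIso_stalkSpecializes (f : X ⟶ Y) [f.IsOver An.SC] (x : An.Pts X) :
    IsIso (Y.presheaf.stalkSpecializes (specializes_of_eq (An.Pts.pt_map f x).symm)) :=
  (Y.presheaf.stalkCongr (.of_eq (An.Pts.pt_map f x))).isIso_hom

theorem isLocalHom_algStalk (f : X ⟶ Y) [f.IsOver An.SC] (x : An.Pts X) :
    IsLocalHom (algStalk f x) := by
  have h1 : IsLocalHom (f.stalkMap x.pt).hom := inferInstance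
  have h2 : IsLocalHom (Y.presheaf.stalkSpecializes
    (specializes_of_eq (An.Pts.pt_map f x).symm)).hom := isLocalHom_of_isIso _
  exact RingHom.isLocalHom_comp _ _

theorem flat_algStalk_iff (f : X ⟶ Y) [f.IsOver An.SC] (x : An.Pts X) :
    (algStalk f x).Flat ↔ (f.stalkMap x.pt).hom.Flat :=
  RingHom.Flat.respectsIso.cancel_left_isIso
    (Y.presheaf.stalkSpecializes (specializes_of_eq (An.Pts.pt_map f x).symm)) (f.stalkMap x.pt)

theorem isLocalHom_anStalk (f : X ⟶ Y) [f.IsOver An.SC] (x : An.Pts X)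
    (hx : UniqMax x) (hy : UniqMax (An.Pts.map f x)) : IsLocalHom (anStalk f x) := by
  have := isLocalRing_of_uniqMax hx
  have := isLocalRing_of_uniqMax hy
  refine ((IsLocalRing.local_hom_TFAE (anStalk f x)).out 0 2).2 ?_
  rw [← maximalIdeal_of_uniqMax hy, ← maximalIdeal_of_uniqMax hx, Ideal.map_map, stalk_square,
    ← Ideal.map_map]
  refine Ideal.map_mono ?_
  have := isLocalHom_algStalk f x
  exact ((IsLocalRing.local_hom_TFAE (algStalk f x)).out 0 2).1 this

/-- `f` flat iff `f^an` flat, pointwise. -/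
theorem flat_stalk_iff (f : X ⟶ Y) [f.IsOver An.SC] (x : An.Pts X)
    (hx : UniqMax x) (hy : UniqMax (An.Pts.map f x))
    (hfx : (phi x).Flat) (hfy : (phi (An.Pts.map f x)).Flat)
    (hNx : IsNoetherianRing ((An.anSpace X).presheaf.stalk x))
    (hNy : IsNoetherianRing ((An.anSpace Y).presheaf.stalk (An.Pts.map f x)))
    (hs : ∀ (n : ℕ) (b : (An.anSpace Y).presheaf.stalk (An.Pts.map f x)),
      ∃ a : Y.presheaf.stalk (An.Pts.map f x).pt, phi (An.Pts.map f x) a - b ∈
        ((maximalIdeal (Y.presheaf.stalk (An.Pts.map f x).pt)).map (phi (An.Pts.map f x))) ^ n) :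
    (f.stalkMap x.pt).hom.Flat ↔ (anStalk f x).Flat := by
  have := isLocalRing_of_uniqMax hx
  have := isLocalRing_of_uniqMax hy
  have hloc := isLocalHom_anStalk f x hx hy
  rw [← flat_algStalk_iff]
  constructor
  · intro h
    refine FlatSquare.ringHom_flat_upper (algStalk f x) (anStalk f x) (phi (An.Pts.map f x)) (phi x)
      (stalk_square f x) hloc (maximalIdeal_of_uniqMax hy) ?_ h hfx
    rwa [maximalIdeal_of_uniqMax hy] at hs
  · intro h
    exact FlatSquare.ringHom_flat_lower (algStalk f x) (anStalk f x) (phi (An.Pts.map f x)) (phi x)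
      (stalk_square f x) (isLocalHom_phi hx) hfx hfy h

/-- `f` flat iff `f^an` flat. -/
theorem flat_iff_of_inputs [LocallyOfFiniteType (X ↘ An.SC)] (f : X ⟶ Y) [f.IsOver An.SC]
    (hx : ∀ x : An.Pts X, UniqMax x) (hy : ∀ y : An.Pts Y, UniqMax y)
    (hfx : ∀ x : An.Pts X, (phi x).Flat) (hfy : ∀ y : An.Pts Y, (phi y).Flat)
    (hNx : ∀ x : An.Pts X, IsNoetherianRing ((An.anSpace X).presheaf.stalk x))
    (hNy : ∀ y : An.Pts Y, IsNoetherianRing ((An.anSpace Y).presheaf.stalk y))
    (hs : ∀ (y : An.Pts Y) (n : ℕ) (b : (An.anSpace Y).presheaf.stalk y),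
      ∃ a : Y.presheaf.stalk y.pt, phi y a - b ∈
        ((maximalIdeal (Y.presheaf.stalk y.pt)).map (phi y)) ^ n) :
    Flat f ↔ ∀ x : An.Pts X, (anStalk f x).Flat := by
  constructor
  · intro h x
    exact (flat_stalk_iff f x (hx x) (hy _) (hfx x) (hfy _) (hNx x) (hNy _) (hs _)).1
      (AlgebraicGeometry.Flat.stalkMap f x.pt)
  · intro h
    have := Groth.Agent.An.H863.PtsBasic.jacobsonSpace X
    refine Groth.Agent.UnramA.MonoEndo.flat_of_closedPoints f fun p hp => ?_
    obtain ⟨x, rfl⟩ := Groth.Agent.An.H863.PtsBasic.exists_pt_eq p hp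
    exact (flat_stalk_iff f x (hx x) (hy _) (hfx x) (hfy _) (hNx x) (hNy _) (hs _)).2 (h x)

end Groth.Agent.Gaga.H988.StalkSquare
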