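import Groth.Agent.Gaga.H988.PnInst
import Groth.Agent.Gaga.H277.AffSp

/-!
# The base `Spec R`, `R = ℂ[y_1, …, y_N]`

* `StdB R`: `Spec R` over `Spec ℂ` by the structure map;
* `ptB c : (Fin N → ℂ) ≃ₜ An.Pts (Spec R)`;
* `map_pt`: the image of `pt c p` under `P^n_R → Spec R`;
* `holPredB_iff`: holomorphic functions are the differentiable functions.
-/

set_option autoImplicit false
open CategoryTheory AlgebraicGeometry Topology TopologicalSpace Opposite Filter
open CohB1
open Groth.Agent.An.H863.PtsBasic Groth.Agent.An.H863.PtsCont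
open Groth.Agent.Gaga.H988.PnPts Groth.Agent.Gaga.H988.PnPts2 Groth.Agent.Gaga.H988.PnCoord
open Groth.Agent.Gaga.H988.PnHol
open Groth.Agent.Gaga.H990.ChartAt

noncomputable section

namespace Groth.Agent.Gaga.H988.Base

variable {N : ℕ} {R : Type} [CommRing R] [Algebra ℂ R] (c : Coord N R)

/-- The structure morphism of `Spec R` over `Spec ℂ` is the standard one. -/
class StdB (R : Type) [CommRing R] [Algebra ℂ R] [(Spec (CommRingCat.of R)).Over An.SC] : Prop where
  eq : (Spec (CommRingCat.of R) ↘ An.SC) = Spec.map (CommRingCat.ofHom (algebraMap ℂ R))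

variable [(Spec (CommRingCat.of R)).Over An.SC] [StdB R]

/-- The complex point of `Spec R` attached to a homomorphism. -/
def ptR (χ : R →ₐ[ℂ] ℂ) : An.Pts (Spec (CommRingCat.of R)) :=
  ⟨Spec.map (CommRingCat.ofHom χ.toRingHom), by
    rw [StdB.eq (R := R), ← Spec.map_comp, ← Spec.map_id]
    congr 1
    ext a
    exact χ.commutes a⟩

/-- The homomorphism attached to a complex point of `Spec R`. -/
def homR (x : An.Pts (Spec (CommRingCat.of R))) : R →ₐ[ℂ] ℂ where
  toRingHom := (Spec.preimage x.1).hom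
  commutes' a := by
    have h1 : CommRingCat.ofHom (algebraMap ℂ R) ≫ Spec.preimage x.1 = 𝟙 (CommRingCat.of ℂ) := by
      apply Spec.map_injective
      rw [Spec.map_comp, Spec.map_preimage, Spec.map_id, ← StdB.eq (R := R)]
      exact x.2
    exact congr($(h1).hom a)

lemma ptR_homR (x : An.Pts (Spec (CommRingCat.of R))) : ptR (homR x) = x :=
  Subtype.ext (Spec.map_preimage _)

lemma homR_ptR (χ : R →ₐ[ℂ] ℂ) : homR (ptR χ) = χ := by
  have h : Spec.preimage (Spec.map (CommRingCat.ofHom χ.toRingHom)) =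
      CommRingCat.ofHom χ.toRingHom := Spec.preimage_map _
  ext r
  exact congr($(h).hom r)

/-- Elements of `R` as global functions. -/
def glob (r : R) : Γ(Spec (CommRingCat.of R), ⊤) := (Scheme.ΓSpecIso (CommRingCat.of R)).inv.hom r

omit [Algebra ℂ R] [(Spec (CommRingCat.of R)).Over An.SC] [StdB R] in
lemma glob_surjective (f : Γ(Spec (CommRingCat.of R), ⊤)) : ∃ r : R, glob r = f :=
  (ConcreteCategory.bijective_of_isIso (Scheme.ΓSpecIso (CommRingCat.of R)).inv).2 f

lemma evTop_glob (x : An.Pts (Spec (CommRingCat.of R))) (r : R) : x.evTop (glob r) = homR x r := by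
  obtain ⟨χ, rfl⟩ : ∃ χ, ptR χ = x := ⟨_, ptR_homR x⟩
  rw [homR_ptR, Groth.Agent.Gaga.H277.AffSp.evTop_eq]
  change (Scheme.ΓSpecIso (CommRingCat.of ℂ)).hom ((Spec.map (CommRingCat.ofHom χ.toRingHom)).appTop
    ((Scheme.ΓSpecIso (CommRingCat.of R)).inv r)) = _
  have h := Scheme.ΓSpecIso_inv_naturality (CommRingCat.ofHom χ.toRingHom)
  have h2 : (Scheme.ΓSpecIso (CommRingCat.of R)).inv ≫
      (Spec.map (CommRingCat.ofHom χ.toRingHom)).appTop ≫
      (Scheme.ΓSpecIso (CommRingCat.of ℂ)).hom = CommRingCat.ofHom χ.toRingHom := by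
    rw [← reassoc_of% h, Iso.inv_hom_id, Category.comp_id]
  exact congr($(h2).hom r)

/-- The underlying map of `ptB`. -/
def ptBf (w : Fin N → ℂ) : An.Pts (Spec (CommRingCat.of R)) := ptR (c.chi w)

lemma evTop_ptBf (w : Fin N → ℂ) (r : R) :
    (ptBf c w : An.Pts (Spec (CommRingCat.of R))).evTop (glob r) = c.chi w r := by
  rw [evTop_glob, ptBf, homR_ptR]

lemma differentiableAt_evAt_top (w : Fin N → ℂ) (f : Γ(Spec (CommRingCat.of R), ⊤)) :
    DifferentiableAt ℂ (fun w => evAt (ptBf c w : An.Pts (Spec (CommRingCat.of R))) ⊤ f) w := by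
  obtain ⟨r, rfl⟩ := glob_surjective f
  have : (fun w => evAt (ptBf c w : An.Pts (Spec (CommRingCat.of R))) ⊤ (glob r)) =
      fun w => c.chi w r := by
    funext w
    rw [evAt_top, evTop_ptBf]
  rw [this]
  exact c.differentiable_chi r w

/-- Regular functions are differentiable. -/
lemma differentiableAt_evAt (w : Fin N → ℂ) (W : (Spec (CommRingCat.of R)).Opens)
    (f : Γ(Spec (CommRingCat.of R), W)) (hW : (ptBf c w : An.Pts (Spec (CommRingCat.of R))).pt ∈ W) :
    DifferentiableAt ℂ (fun w => evAt (ptBf c w : An.Pts (Spec (CommRingCat.of R))) W f) w :=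
  Groth.Agent.Gaga.H277.DiffAt.differentiableAt_of_affine_all (ptBf c) w ⊤
    (isAffineOpen_top _) (Eventually.of_forall fun _ => trivial)
    (fun f => differentiableAt_evAt_top c w f) W f hW

lemma continuous_ptBf : Continuous (ptBf c : (Fin N → ℂ) → An.Pts (Spec (CommRingCat.of R))) :=
  continuous_iff_continuousAt.2 fun w =>
    continuousAt_of_affine_all (ptBf c) w ⊤ (isAffineOpen_top _)
      (Eventually.of_forall fun _ => trivial)
      fun f => (differentiableAt_evAt_top c w f).continuousAt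

/-- The base coordinates of a complex point. -/
def coB (x : An.Pts (Spec (CommRingCat.of R))) : Fin N → ℂ := fun k => x.evTop (glob (c.y k))

lemma coB_ptBf (w : Fin N → ℂ) : coB c (ptBf c w : An.Pts (Spec (CommRingCat.of R))) = w := by
  funext k
  rw [coB, evTop_ptBf, c.chi_y]

lemma ptBf_coB (x : An.Pts (Spec (CommRingCat.of R))) : ptBf c (coB c x) = x := by
  have h : c.chi (coB c x) = homR x := by
    apply c.chi_ext
    intro k
    rw [c.chi_y]
    exact evTop_glob x (c.y k)
  rw [ptBf, h, ptR_homR]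

/-- Complex points of `Spec R`. -/
def ptB : (Fin N → ℂ) ≃ₜ An.Pts (Spec (CommRingCat.of R)) where
  toFun := ptBf c
  invFun := coB c
  left_inv := coB_ptBf c
  right_inv := ptBf_coB c
  continuous_toFun := continuous_ptBf c
  continuous_invFun := continuous_pi fun k => continuous_evTop _

lemma ptB_apply (w : Fin N → ℂ) : (ptB c w : An.Pts (Spec (CommRingCat.of R))) = ptR (c.chi w) := rfl

lemma ptB_symm_apply (x : An.Pts (Spec (CommRingCat.of R))) (k : Fin N) :
    (ptB c).symm x k = x.evTop (glob (c.y k)) := rfl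

/-- Holomorphic near a point iff differentiable in the coordinates near it. -/
theorem chartAtB_iff {φ : An.Pts (Spec (CommRingCat.of R)) → ℂ} {w : Fin N → ℂ} :
    ChartAt φ (ptB c w) ↔ ∀ᶠ v in 𝓝 w, DifferentiableAt ℂ (fun v => φ (ptB c v)) v := by
  constructor
  · intro h
    filter_upwards [(ptB c).continuous.continuousAt.eventually h.eventually] with v hv
    obtain ⟨W, m, s, G, hx, hG, he⟩ := hv
    have h1 : DifferentiableAt ℂ (fun q : Fin N → ℂ =>
        fun i => evAt (ptB c q : An.Pts (Spec (CommRingCat.of R))) W (s i)) v :=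
      differentiableAt_pi.2 fun i => differentiableAt_evAt c v W (s i) hx
    have h2 : DifferentiableAt ℂ (fun q : Fin N → ℂ =>
        G (fun i => evAt (ptB c q : An.Pts (Spec (CommRingCat.of R))) W (s i))) v :=
      DifferentiableAt.comp (g := G) v hG.self_of_nhds h1
    refine h2.congr_of_eventuallyEq ?_
    exact (ptB c).continuous.continuousAt.eventually he
  · intro h
    have e1 : (fun k => evAt (ptB c w : An.Pts (Spec (CommRingCat.of R))) ⊤ (glob (c.y k))) = w := by
      funext k
      rw [evAt_top]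
      exact congrFun (coB_ptBf c w) k
    refine ChartAt.mk (ι := Fin N) ⊤ (fun k => glob (c.y k)) (fun v => φ (ptB c v)) trivial ?_ ?_
    · rw [e1]; exact h
    · refine Eventually.of_forall fun x => ?_
      have : (fun k => evAt x ⊤ (glob (c.y k))) = (ptB c).symm x := by
        funext k
        rw [evAt_top]; rfl
      change φ x = φ (ptB c _)
      rw [this, Homeomorph.apply_symm_apply]

/-- Holomorphic functions on `Spec R` are the differentiable functions of the coordinates. -/
theorem holPredB_iff (W : Opens (An.top (Spec (CommRingCat.of R)))) (g : W → ℂ) :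
    (An.holPred (Spec (CommRingCat.of R))).pred g ↔
      DifferentiableOn ℂ (fun w => ext0 W g (ptB c w)) {w | ptB c w ∈ W} := by
  rw [Groth.Agent.Gaga.H990.ChartAt.holPred_iff]
  have ho : IsOpen {w | (ptB c w : An.Pts (Spec (CommRingCat.of R))) ∈ W} :=
    W.isOpen.preimage (ptB c).continuous
  constructor
  · intro h w hw
    exact ((chartAtB_iff c).1 (h _ hw)).self_of_nhds.differentiableWithinAt
  · intro h x hx
    obtain ⟨w, rfl⟩ := (ptB c).surjective x
    rw [chartAtB_iff c]
    filter_upwards [ho.mem_nhds hx] with v hv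
    exact (h v hv).differentiableAt (ho.mem_nhds hv)

section Map

variable {n : ℕ} [(ProjSpace n R).Over An.SC] [StdOver n R]

/-- `P^n_R → Spec R` is a morphism over `ℂ`. -/
instance isOver_toSpec : (ProjSpace.toSpec n R).IsOver An.SC where
  comp_over := by rw [StdB.eq (R := R), StdOver.eq (n := n) (R := R)]

lemma map_pnt (χ : R →ₐ[ℂ] ℂ) (z : Fin (n + 1) → ℂ) (hz : z ≠ 0) :
    An.Pts.map (ProjSpace.toSpec n R) (pnt χ z hz) = ptR χ :=
  Subtype.ext (pnt_toSpec χ z hz)

/-- The image of a point in the base. -/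
theorem map_pt {p : E n N} (hp : p.1 ≠ 0) :
    An.Pts.map (ProjSpace.toSpec n R) (pt c p) = ptB c p.2 := by
  rw [pt_of_ne c hp, map_pnt]
  rfl

/-- The image of a point in the base (no condition). -/
theorem map_pt' (p : E n N) :
    An.Pts.map (ProjSpace.toSpec n R) (pt c p) = ptB c p.2 := by
  by_cases hp : p.1 ≠ 0
  · exact map_pt c hp
  · rw [pt, dif_neg hp, map_pnt]
    rfl

end Map

end Groth.Agent.Gaga.H988.Base

namespace Groth.Agent.Gaga.H988.Base

/-- The standard structure on `Spec R` (not an instance). -/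
@[reducible] def overB (R : Type) [CommRing R] [Algebra ℂ R] :
    (Spec (CommRingCat.of R)).Over An.SC :=
  ⟨Spec.map (CommRingCat.ofHom (algebraMap ℂ R))⟩

theorem stdB_overB (R : Type) [CommRing R] [Algebra ℂ R] : @StdB R _ _ (overB R) :=
  letI := overB R
  ⟨rfl⟩

/-- `Spec ℂ` over itself by the identity is standard. -/
theorem stdB_id : @StdB ℂ _ _ ⟨𝟙 An.SC⟩ :=
  letI : (Spec (CommRingCat.of ℂ)).Over An.SC := ⟨𝟙 An.SC⟩
  ⟨by
    have h : CommRingCat.ofHom (algebraMap ℂ ℂ) = 𝟙 (CommRingCat.of ℂ) := rfl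
    rw [h, Spec.map_id]
    rfl⟩

end Groth.Agent.Gaga.H988.Base
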