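import Groth.Agent.Gaga.H988.PnPts

set_option autoImplicit false
open CategoryTheory AlgebraicGeometry Topology TopologicalSpace Opposite Filter
open HomogeneousLocalization CohB1

noncomputable section

namespace Groth.Agent.Gaga.H988.PnPts2

open Groth.Agent.Gaga.H988.PnPts

variable {n : ℕ} {R : Type} [CommRing R] [Algebra ℂ R]
variable [(ProjSpace n R).Over An.SC] [StdOver n R] (χ : R →ₐ[ℂ] ℂ) (z : Fin (n + 1) → ℂ)

lemma ev_eq {x y : An.Pts (ProjSpace n R)} (h : x = y) (U : (ProjSpace n R).Opens)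
    (hx : x.pt ∈ U) (hy : y.pt ∈ U) (f : Γ(ProjSpace n R, U)) : x.ev U hx f = y.ev U hy f := by
  subst h; rfl

lemma key1 {χ' : R →ₐ[ℂ] ℂ} {z' : Fin (n + 1) → ℂ} (hz : z ≠ 0) (hz' : z' ≠ 0)
    (h : pnt χ z hz = pnt χ' z' hz') (i : Fin (n + 1))
    (hm : (pnt χ z hz).pt ∈ Dp (MvPolynomial.X i : MvPolynomial (Fin (n + 1)) R))
    (hm' : (pnt χ' z' hz').pt ∈ Dp (MvPolynomial.X i : MvPolynomial (Fin (n + 1)) R))
    (j : Fin (n + 1)) : z j / z i = z' j / z' i := by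
  have e1 := ev_ratio χ z hz i hm j
  have e2 := ev_ratio χ' z' hz' i hm' j
  exact e1.symm.trans ((ev_eq h _ hm hm' _).trans e2)

lemma mem_X (hz : z ≠ 0) (i : Fin (n + 1)) :
    (pnt χ z hz).pt ∈ Dp (MvPolynomial.X i : MvPolynomial (Fin (n + 1)) R) ↔ z i ≠ 0 := by
  rw [pnt_mem_iff χ z hz (Groth.Agent.CohqB.ProjBC.X_mem n i) one_pos, evA_X]

lemma base_eq_of_eq {χ' : R →ₐ[ℂ] ℂ} {z' : Fin (n + 1) → ℂ} (hz : z ≠ 0) (hz' : z' ≠ 0)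
    (h : pnt χ z hz = pnt χ' z' hz') : χ = χ' :=
  (base_pnt χ z hz).symm.trans ((congrArg base h).trans (base_pnt χ' z' hz'))

lemma exists_smul_of_eq {χ' : R →ₐ[ℂ] ℂ} {z' : Fin (n + 1) → ℂ} (hz : z ≠ 0) (hz' : z' ≠ 0)
    (h : pnt χ z hz = pnt χ' z' hz') : ∃ c : ℂ, c ≠ 0 ∧ z' = c • z := by
  obtain ⟨i, hi⟩ := Function.ne_iff.1 hz
  have hi0 : z i ≠ 0 := hi
  have hm := (mem_X χ z hz i).2 hi0
  have hm' : (pnt χ' z' hz').pt ∈ Dp (MvPolynomial.X i : MvPolynomial (Fin (n + 1)) R) := by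
    rw [← h]; exact hm
  have hi' : z' i ≠ 0 := (mem_X χ' z' hz' i).1 hm'
  refine ⟨z' i / z i, div_ne_zero hi' hi0, ?_⟩
  funext j
  have h5 := key1 χ z hz hz' h i hm hm' j
  rw [Pi.smul_apply, smul_eq_mul, div_mul_eq_mul_div, eq_div_iff hi0]
  rw [div_eq_div_iff hi0 hi'] at h5
  rw [← h5, mul_comm]

/-- Homogeneous coordinates are unique up to a scalar. -/
theorem pnt_eq_iff {χ' : R →ₐ[ℂ] ℂ} {z' : Fin (n + 1) → ℂ} (hz : z ≠ 0) (hz' : z' ≠ 0) :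
    pnt χ z hz = pnt χ' z' hz' ↔ χ = χ' ∧ ∃ c : ℂ, c ≠ 0 ∧ z' = c • z := by
  constructor
  · intro h
    exact ⟨base_eq_of_eq χ z hz hz' h, exists_smul_of_eq χ z hz hz' h⟩
  · rintro ⟨rfl, c, hc, rfl⟩
    exact (pnt_smul χ z hz c hz').symm

end Groth.Agent.Gaga.H988.PnPts2
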