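import Groth.Agent.Gaga.H988.PnHol
import Mathlib.Algebra.MvPolynomial.Equiv

/-!
# The standard cases `P^n_ℂ` and `P^n` over `ℂ[y_1, …, y_N]`
-/

set_option autoImplicit false
open CategoryTheory AlgebraicGeometry Topology TopologicalSpace Opposite
open CohB1 Groth.Agent.Gaga.H988.PnPts Groth.Agent.Gaga.H988.PnCoord

noncomputable section

namespace Groth.Agent.Gaga.H988.PnInst

/-- `P^n_R` over `Spec ℂ` through `Spec R` (not an instance: for `R = ℂ` the prelude has one). -/
@[reducible] def overStd (n : ℕ) (R : Type) [CommRing R] [Algebra ℂ R] :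
    (ProjSpace n R).Over An.SC :=
  ⟨ProjSpace.toSpec n R ≫ Spec.map (CommRingCat.ofHom (algebraMap ℂ R))⟩

theorem stdOver_overStd (n : ℕ) (R : Type) [CommRing R] [Algebra ℂ R] :
    @StdOver n R _ _ (overStd n R) :=
  letI := overStd n R
  ⟨rfl⟩

/-- The prelude's structure on `P^n_ℂ` is standard. -/
instance stdOver_C (n : ℕ) : StdOver n ℂ where
  eq := by
    have h : CommRingCat.ofHom (algebraMap ℂ ℂ) = 𝟙 (CommRingCat.of ℂ) := rfl
    rw [h, Spec.map_id, Category.comp_id]
    rfl

/-- Coordinates on `ℂ`: none. -/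
def coordC : Coord 0 ℂ where
  y := Fin.elim0
  bij := by
    have h : (MvPolynomial.aeval Fin.elim0 : MvPolynomial (Fin 0) ℂ →ₐ[ℂ] ℂ) =
        (MvPolynomial.isEmptyAlgEquiv ℂ (Fin 0)).toAlgHom :=
      MvPolynomial.algHom_ext fun k => k.elim0
    rw [h]
    exact (MvPolynomial.isEmptyAlgEquiv ℂ (Fin 0)).bijective

/-- Coordinates on the polynomial ring. -/
def coordPoly (N : ℕ) : Coord N (MvPolynomial (Fin N) ℂ) where
  y := MvPolynomial.X
  bij := by
    rw [MvPolynomial.aeval_X_left]
    exact Function.bijective_id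

end Groth.Agent.Gaga.H988.PnInst
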