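import Groth.Prelude.Def_AnHol
import Groth.Agent.Gaga.H988.PnPts2
import Groth.Agent.Gaga.H277.DiffAt
import Groth.Agent.Gaga.H990.ChartAt
import Groth.Agent.Gaga.H294.Cone

/-!
# Homogeneous coordinates on the complex points of `P^n_R`, `R = ℂ[y_1, …, y_N]`

* `Coord N R`: polynomial coordinates on `R`;
* `pt`: the point with homogeneous coordinates `p.1 ≠ 0` and base coordinates `p.2`;
* `homCoords`: the structure `HomCoords` on `An.top (ProjSpace n R)`;
* `chartAt_iff`, `holPred_iff`: holomorphic functions are the functions which are complex-differentiable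
  on the cone.
-/

set_option autoImplicit false
open CategoryTheory AlgebraicGeometry Topology TopologicalSpace Opposite Filter
open HomogeneousLocalization CohB1
open Groth.Agent.An.H863.PtsBasic Groth.Agent.An.H863.PtsCont
open Groth.Agent.Gaga.H988.PnPts Groth.Agent.Gaga.H988.PnPts2
open Groth.Agent.Gaga.H990.ChartAt

noncomputable section

namespace Groth.Agent.Gaga.H988.PnCoord

/-- Polynomial coordinates on a `ℂ`-algebra. -/
structure Coord (N : ℕ) (R : Type) [CommRing R] [Algebra ℂ R] where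
  /-- the coordinates -/
  y : Fin N → R
  bij : Function.Bijective (MvPolynomial.aeval y : MvPolynomial (Fin N) ℂ →ₐ[ℂ] R)

variable {n N : ℕ} {R : Type} [CommRing R] [Algebra ℂ R] (c : Coord N R)

/-- The point of the base with coordinates `w`. -/
def Coord.chi (w : Fin N → ℂ) : R →ₐ[ℂ] ℂ :=
  (MvPolynomial.aeval w).comp (AlgEquiv.ofBijective _ c.bij).symm.toAlgHom

lemma Coord.chi_aeval (w : Fin N → ℂ) (q : MvPolynomial (Fin N) ℂ) :
    c.chi w (MvPolynomial.aeval c.y q) = MvPolynomial.aeval w q := by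
  change MvPolynomial.aeval w ((AlgEquiv.ofBijective _ c.bij).symm
    ((AlgEquiv.ofBijective _ c.bij) q)) = _
  rw [AlgEquiv.symm_apply_apply]

@[simp] lemma Coord.chi_y (w : Fin N → ℂ) (k : Fin N) : c.chi w (c.y k) = w k := by
  have := c.chi_aeval w (MvPolynomial.X k)
  rwa [MvPolynomial.aeval_X, MvPolynomial.aeval_X] at this

lemma Coord.chi_ext {χ χ' : R →ₐ[ℂ] ℂ} (h : ∀ k, χ (c.y k) = χ' (c.y k)) : χ = χ' := by
  ext r
  obtain ⟨q, rfl⟩ := c.bij.2 r
  have : χ.comp (MvPolynomial.aeval c.y) = χ'.comp (MvPolynomial.aeval c.y) := by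
    apply MvPolynomial.algHom_ext
    intro k
    simp only [AlgHom.comp_apply, MvPolynomial.aeval_X]
    exact h k
  exact congr($this q)

lemma Coord.chi_self (χ : R →ₐ[ℂ] ℂ) : c.chi (fun k => χ (c.y k)) = χ :=
  c.chi_ext fun k => c.chi_y _ k

lemma Coord.chi_injective {w w' : Fin N → ℂ} (h : c.chi w = c.chi w') : w = w' := by
  funext k
  rw [← c.chi_y w k, h, c.chi_y]

/-- Values of functions on the base are differentiable in the coordinates. -/
lemma Coord.differentiable_chi (r : R) : Differentiable ℂ (fun w => c.chi w r) := by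
  obtain ⟨q, rfl⟩ := c.bij.2 r
  simp only [c.chi_aeval]
  induction q using MvPolynomial.induction_on with
  | C a => simpa using differentiable_const a
  | add p q hp hq =>
    simp only [map_add]
    exact hp.fun_add hq
  | mul_X p i hp =>
    simp only [map_mul, MvPolynomial.aeval_X]
    exact hp.fun_mul (differentiable_apply i)

/-- The total space of homogeneous coordinates. -/
abbrev E (n N : ℕ) : Type := (Fin (n + 1) → ℂ) × (Fin N → ℂ)

/-- Values of polynomials at normalized coordinates are differentiable. -/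
lemma differentiableAt_evA (i : Fin (n + 1)) (a : MvPolynomial (Fin (n + 1)) R) (p : E n N)
    (hp : p.1 i ≠ 0) :
    DifferentiableAt ℂ (fun q : E n N => evA (c.chi q.2) (fun j => q.1 j / q.1 i) a) p := by
  induction a using MvPolynomial.induction_on with
  | C r =>
    simp only [evA_C]
    exact DifferentiableAt.comp (g := fun w => c.chi w r) (f := Prod.snd) p
      (c.differentiable_chi r _) differentiableAt_snd
  | add a b ha hb =>
    simp only [map_add]
    exact ha.fun_add hb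
  | mul_X a j ha =>
    simp only [map_mul, evA_X]
    refine ha.fun_mul ?_
    have h1 : ∀ j, DifferentiableAt ℂ (fun q : E n N => q.1 j) p := fun j =>
      DifferentiableAt.comp (g := fun z : Fin (n + 1) → ℂ => z j) (f := Prod.fst) p
        (differentiableAt_apply j _) differentiableAt_fst
    simp only [div_eq_mul_inv]
    exact (h1 j).fun_mul ((h1 i).fun_inv hp)

variable [(ProjSpace n R).Over An.SC] [StdOver n R]

/-- The point with homogeneous coordinates `p.1` and base coordinates `p.2` (junk for `p.1 = 0`). -/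
def pt (p : E n N) : An.Pts (ProjSpace n R) := by
  classical
  exact if h : p.1 ≠ 0 then pnt (c.chi p.2) p.1 h else pnt (c.chi p.2) 1 one_ne_zero

lemma pt_of_ne {p : E n N} (h : p.1 ≠ 0) :
    pt c p = (pnt (c.chi p.2) p.1 h : An.Pts (ProjSpace n R)) := dif_pos h

lemma ne_zero_of {p : E n N} {i : Fin (n + 1)} (h : p.1 i ≠ 0) : p.1 ≠ 0 := fun h0 => h (by rw [h0]; rfl)

/-- the value of `sec (chartHom a)` at a point -/
lemma evAt_pt {p : E n N} (i : Fin (n + 1)) (hp : p.1 i ≠ 0)
    (a : MvPolynomial (Fin (n + 1)) R) :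
    evAt (pt c p : An.Pts (ProjSpace n R)) (Dp (MvPolynomial.X i)) ((sec (MvPolynomial.X i)).hom
      (Groth.Agent.CohqB.ProjBC.chartHom n i a)) =
      evA (c.chi p.2) (fun j => p.1 j / p.1 i) a := by
  have h0 := ne_zero_of hp
  have hmem := (mem_X (c.chi p.2) p.1 h0 i).2 hp
  rw [pt_of_ne c h0, evAt_of_mem hmem, ev_chartHom, base_pnt]
  congr 1
  congr 1
  funext j
  have h5 : Groth.Agent.CohqB.ProjBC.chartHom (A := R) n i (MvPolynomial.X j) =
      Away.mk _ (Groth.Agent.CohqB.ProjBC.X_mem (A := R) n i) 1 (MvPolynomial.X j)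
        (mem_smul_one j) :=
    Groth.Agent.CohqB.ProjBC.chartHom_X n i j
  rw [h5]
  exact ev_ratio _ _ h0 i hmem j

lemma sec_surjective (i : Fin (n + 1))
    (f : Γ(ProjSpace n R, Dp (MvPolynomial.X i : MvPolynomial (Fin (n + 1)) R))) :
    ∃ a : MvPolynomial (Fin (n + 1)) R, (sec (MvPolynomial.X i)).hom
      (Groth.Agent.CohqB.ProjBC.chartHom n i a) = f := by
  have h := isIso_sec (Groth.Agent.CohqB.ProjBC.X_mem (A := R) n i) one_pos
  obtain ⟨q, rfl⟩ := (ConcreteCategory.bijective_of_isIso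
    (sec (MvPolynomial.X i : MvPolynomial (Fin (n + 1)) R))).2 f
  obtain ⟨a, rfl⟩ := Groth.Agent.CohqB.ProjBC.chartHom_surjective n i q
  exact ⟨a, rfl⟩

lemma isAffineOpen_Dp (i : Fin (n + 1)) :
    IsAffineOpen (Dp (MvPolynomial.X i : MvPolynomial (Fin (n + 1)) R)) :=
  Groth.Agent.CohqB.P1Charts.isAffineOpen_D n R i

lemma pt_mem_iff {p : E n N} (h : p.1 ≠ 0) (i : Fin (n + 1)) :
    (pt c p : An.Pts (ProjSpace n R)).pt ∈
      Dp (MvPolynomial.X i : MvPolynomial (Fin (n + 1)) R) ↔ p.1 i ≠ 0 := by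
  rw [pt_of_ne c h]
  exact mem_X _ _ h i

lemma eventually_ne {p : E n N} {i : Fin (n + 1)} (hp : p.1 i ≠ 0) :
    ∀ᶠ q : E n N in 𝓝 p, q.1 i ≠ 0 := by
  have h1 : ContinuousAt (fun q : E n N => q.1 i) p :=
    ((continuous_apply i).comp continuous_fst).continuousAt
  exact h1.eventually_ne hp

lemma eventually_mem {p : E n N} {i : Fin (n + 1)} (hp : p.1 i ≠ 0) :
    ∀ᶠ q : E n N in 𝓝 p, (pt c q : An.Pts (ProjSpace n R)).pt ∈
      Dp (MvPolynomial.X i : MvPolynomial (Fin (n + 1)) R) := by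
  filter_upwards [eventually_ne hp] with q hq
  exact (pt_mem_iff c (ne_zero_of hq) i).2 hq

lemma differentiableAt_evAt_chart {p : E n N} {i : Fin (n + 1)} (hp : p.1 i ≠ 0)
    (f : Γ(ProjSpace n R, Dp (MvPolynomial.X i : MvPolynomial (Fin (n + 1)) R))) :
    DifferentiableAt ℂ (fun q : E n N => evAt (pt c q : An.Pts (ProjSpace n R)) _ f) p := by
  obtain ⟨a, rfl⟩ := sec_surjective i f
  refine (differentiableAt_evA c i a p hp).congr_of_eventuallyEq ?_
  filter_upwards [eventually_ne hp] with q hq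
  exact evAt_pt c i hq a

/-- Regular functions are differentiable in the homogeneous coordinates. -/
lemma differentiableAt_evAt {p : E n N} (h : p.1 ≠ 0) (W : (ProjSpace n R).Opens)
    (f : Γ(ProjSpace n R, W)) (hW : (pt c p : An.Pts (ProjSpace n R)).pt ∈ W) :
    DifferentiableAt ℂ (fun q : E n N => evAt (pt c q : An.Pts (ProjSpace n R)) W f) p := by
  obtain ⟨i, hi⟩ := Function.ne_iff.1 h
  exact Groth.Agent.Gaga.H277.DiffAt.differentiableAt_of_affine_all (pt c) p _
    (isAffineOpen_Dp i) (eventually_mem c hi) (fun f => differentiableAt_evAt_chart c hi f) W f hW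

lemma continuousAt_pt {p : E n N} (h : p.1 ≠ 0) :
    ContinuousAt (pt c : E n N → An.Pts (ProjSpace n R)) p := by
  obtain ⟨i, hi⟩ := Function.ne_iff.1 h
  exact continuousAt_of_affine_all (pt c) p _ (isAffineOpen_Dp i) (eventually_mem c hi)
    (fun f => (differentiableAt_evAt_chart c hi f).continuousAt)

/-- The base coordinate `y_k` as a section over `D₊(X_i)`. -/
def ySec (i : Fin (n + 1)) (k : Fin N) :
    Γ(ProjSpace n R, Dp (MvPolynomial.X i : MvPolynomial (Fin (n + 1)) R)) :=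
  (sec (MvPolynomial.X i)).hom (Groth.Agent.CohqB.ProjBC.chartHom n i (MvPolynomial.C (c.y k)))

/-- The coordinate `X_j / X_i` as a section over `D₊(X_i)`. -/
def xSec (i j : Fin (n + 1)) :
    Γ(ProjSpace n R, Dp (MvPolynomial.X i : MvPolynomial (Fin (n + 1)) R)) :=
  (sec (MvPolynomial.X i)).hom (Groth.Agent.CohqB.ProjBC.chartHom n i (MvPolynomial.X j))

lemma evAt_ySec {p : E n N} (i : Fin (n + 1)) (hp : p.1 i ≠ 0) (k : Fin N) :
    evAt (pt c p : An.Pts (ProjSpace n R)) _ (ySec c i k) = p.2 k := by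
  rw [ySec, evAt_pt c i hp, evA_C, c.chi_y]

lemma evAt_xSec {p : E n N} (i : Fin (n + 1)) (hp : p.1 i ≠ 0) (j : Fin (n + 1)) :
    evAt (pt c p : An.Pts (ProjSpace n R)) _ (xSec i j) = p.1 j / p.1 i := by
  rw [xSec, evAt_pt c i hp, evA_X]

/-- Every complex point in `D₊(X_i)` has homogeneous coordinates with `z_i = a`. -/
theorem exists_pt_chart (x : An.Pts (ProjSpace n R)) (i : Fin (n + 1))
    (h : x.pt ∈ Dp (MvPolynomial.X i : MvPolynomial (Fin (n + 1)) R)) (a : ℂ) (ha : a ≠ 0) :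
    ∃ p : E n N, p.1 i = a ∧ pt c p = x := by
  obtain ⟨z, hz, hzi, hx⟩ := exists_pnt x i h
  have hz' : a • z ≠ 0 := smul_ne_zero ha hz
  refine ⟨(a • z, fun k => base x (c.y k)), by simp [hzi], ?_⟩
  rw [pt_of_ne c hz', c.chi_self]
  rw [hx, base_pnt]
  exact pnt_smul _ z hz a hz'

theorem exists_pt (x : An.Pts (ProjSpace n R)) : ∃ p : E n N, p.1 ≠ 0 ∧ pt c p = x := by
  obtain ⟨i, h⟩ := exists_mem_Dp x
  obtain ⟨p, hp, hx⟩ := exists_pt_chart c x i h 1 one_ne_zero
  exact ⟨p, ne_zero_of (i := i) (by rw [hp]; exact one_ne_zero), hx⟩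

theorem pt_eq_iff (p q : E n N) (hp : p.1 ≠ 0) (hq : q.1 ≠ 0) :
    (pt c p : An.Pts (ProjSpace n R)) = pt c q ↔ p.2 = q.2 ∧ ∃ t : ℂ, t ≠ 0 ∧ q.1 = t • p.1 := by
  rw [pt_of_ne c hp, pt_of_ne c hq, pnt_eq_iff _ _ hp hq]
  constructor
  · rintro ⟨h1, h2⟩
    exact ⟨c.chi_injective h1, h2⟩
  · rintro ⟨h1, h2⟩
    exact ⟨by rw [h1], h2⟩

/-- The local section of `pt` over `D₊(X_i)` with `z_i = a`. -/
def sig (i : Fin (n + 1)) (a : ℂ) (x : An.Pts (ProjSpace n R)) : E n N :=
  (fun j => a * evAt x _ (xSec (R := R) i j), fun k => evAt x _ (ySec c i k))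

lemma sig_pt {p : E n N} (i : Fin (n + 1)) (hp : p.1 i ≠ 0) :
    sig c i (p.1 i) (pt c p : An.Pts (ProjSpace n R)) = p := by
  apply Prod.ext
  · funext j
    change p.1 i * evAt (pt c p : An.Pts (ProjSpace n R)) _ (xSec (R := R) i j) = p.1 j
    rw [evAt_xSec c i hp, mul_div_cancel₀ _ hp]
  · funext k
    exact evAt_ySec c i hp k

lemma pt_sig (x : An.Pts (ProjSpace n R)) (i : Fin (n + 1))
    (h : x.pt ∈ Dp (MvPolynomial.X i : MvPolynomial (Fin (n + 1)) R)) (a : ℂ) (ha : a ≠ 0) :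
    pt c (sig c i a x) = x := by
  obtain ⟨p, hp, rfl⟩ := exists_pt_chart c x i h a ha
  have hpi : p.1 i ≠ 0 := by rw [hp]; exact ha
  have := sig_pt c i hpi
  rw [hp] at this
  rw [this]

omit [StdOver n R] in
lemma continuousAt_sig (x : An.Pts (ProjSpace n R)) (i : Fin (n + 1))
    (h : x.pt ∈ Dp (MvPolynomial.X i : MvPolynomial (Fin (n + 1)) R)) (a : ℂ) :
    ContinuousAt (sig c i a : An.Pts (ProjSpace n R) → E n N) x := by
  refine ContinuousAt.prodMk (continuousAt_pi.2 fun j => ?_) (continuousAt_pi.2 fun k => ?_)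
  · exact continuousAt_const.mul (continuousAt_evAt _ _ h)
  · exact continuousAt_evAt _ _ h

theorem isOpen_image (V : Set (E n N)) (hV : IsOpen V) (h0 : V ⊆ {p | p.1 ≠ 0}) :
    IsOpen ((pt c : E n N → An.Pts (ProjSpace n R)) '' V) := by
  rw [isOpen_iff_mem_nhds]
  rintro _ ⟨p, hp, rfl⟩
  obtain ⟨i, hi⟩ := Function.ne_iff.1 (h0 hp)
  have hi' : p.1 i ≠ 0 := hi
  have hmem := (pt_mem_iff c (h0 hp) i).2 hi'
  have h1 := continuousAt_sig c (pt c p : An.Pts (ProjSpace n R)) i hmem (p.1 i)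
  have h2 : V ∈ 𝓝 (sig c i (p.1 i) (pt c p : An.Pts (ProjSpace n R))) := by
    rw [sig_pt c i hi']; exact hV.mem_nhds hp
  filter_upwards [h1.preimage_mem_nhds h2,
    (An.Pts.isOpen_preimage_pt (Dp (MvPolynomial.X i : MvPolynomial (Fin (n + 1)) R))).mem_nhds hmem]
    with x hx hx'
  exact ⟨_, hx, pt_sig c x i hx' _ hi'⟩

/-- Homogeneous coordinates on the complex points of `P^n_R`. -/
def homCoords : Groth.Agent.Gaga.H294.Cone.HomCoords (An.top (ProjSpace n R)) (Fin (n + 1)) (Fin N) where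
  pt := pt c
  continuousOn_pt := fun p hp => (continuousAt_pt c hp).continuousWithinAt
  isOpen_image := isOpen_image c
  exists_pt := exists_pt c
  pt_eq_iff := pt_eq_iff c

@[simp] lemma homCoords_pt (p : E n N) :
    (homCoords (n := n) (R := R) c).pt p = (pt c p : An.Pts (ProjSpace n R)) := rfl

end Groth.Agent.Gaga.H988.PnCoord
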