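import Groth.Agent.Gaga.H988.PnCoord

/-!
# Holomorphic functions on the complex points of `P^n_R`, `R = ℂ[y_1, …, y_N]`

* `chartAt_iff`: `φ` is holomorphic near `pt p` iff `φ ∘ pt` is complex-differentiable near `p`;
* `holPred_iff`, `holPred_iff_cone`.
-/

set_option autoImplicit false
open CategoryTheory AlgebraicGeometry Topology TopologicalSpace Opposite Filter
open HomogeneousLocalization CohB1
open Groth.Agent.An.H863.PtsBasic Groth.Agent.An.H863.PtsCont
open Groth.Agent.Gaga.H988.PnPts Groth.Agent.Gaga.H988.PnPts2 Groth.Agent.Gaga.H988.PnCoord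
open Groth.Agent.Gaga.H990.ChartAt

noncomputable section

namespace Groth.Agent.Gaga.H988.PnHol

variable {n N : ℕ} {R : Type} [CommRing R] [Algebra ℂ R] (c : Coord N R)
  [(ProjSpace n R).Over An.SC] [StdOver n R]

/-- Functions which are charts near `pt p` are differentiable at `p` after pull-back. -/
lemma differentiableAt_of_chartAt {φ : An.Pts (ProjSpace n R) → ℂ} {p : E n N} (hp : p.1 ≠ 0)
    (h : ChartAt φ (pt c p)) : DifferentiableAt ℂ (fun q => φ (pt c q)) p := by
  obtain ⟨W, m, s, G, hx, hG, he⟩ := h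
  have h1 : DifferentiableAt ℂ (fun q : E n N =>
      fun i => evAt (pt c q : An.Pts (ProjSpace n R)) W (s i)) p :=
    differentiableAt_pi.2 fun i => differentiableAt_evAt c hp W (s i) hx
  have h2 : DifferentiableAt ℂ (fun q : E n N =>
      G (fun i => evAt (pt c q : An.Pts (ProjSpace n R)) W (s i))) p :=
    DifferentiableAt.comp (g := G) p hG.self_of_nhds h1
  refine h2.congr_of_eventuallyEq ?_
  exact (continuousAt_pt c hp).eventually he

lemma isOpen_fst_ne : IsOpen {p : E n N | p.1 ≠ 0} :=
  (isOpen_ne (x := (0 : Fin (n + 1) → ℂ))).preimage continuous_fst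

lemma eventually_ne0 {p : E n N} (hp : p.1 ≠ 0) : ∀ᶠ q : E n N in 𝓝 p, q.1 ≠ 0 :=
  isOpen_fst_ne.mem_nhds hp

/-- the coordinates of the local section are charts -/
lemma chartAt_sig_fst (x : An.Pts (ProjSpace n R)) (i : Fin (n + 1))
    (h : x.pt ∈ Dp (MvPolynomial.X i : MvPolynomial (Fin (n + 1)) R)) (a : ℂ) (j : Fin (n + 1)) :
    ChartAt (fun x => (sig c i a x).1 j) x :=
  (chartAt_const a x).mul (chartAt_evAt _ _ h)

lemma chartAt_sig_snd (x : An.Pts (ProjSpace n R)) (i : Fin (n + 1))
    (h : x.pt ∈ Dp (MvPolynomial.X i : MvPolynomial (Fin (n + 1)) R)) (a : ℂ) (k : Fin N) :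
    ChartAt (fun x => (sig c i a x).2 k) x :=
  chartAt_evAt _ _ h

/-- the linear isomorphism splitting the coordinates -/
def split : (Fin (n + 1) ⊕ Fin N → ℂ) →L[ℂ] E n N :=
  (ContinuousLinearMap.pi fun j => ContinuousLinearMap.proj (Sum.inl j)).prod
    (ContinuousLinearMap.pi fun k => ContinuousLinearMap.proj (Sum.inr k))

lemma split_apply (v : Fin (n + 1) ⊕ Fin N → ℂ) :
    (split v : E n N) = (fun j => v (Sum.inl j), fun k => v (Sum.inr k)) := rfl

/-- A function which is differentiable near `p` after pull-back is a chart near `pt p`. -/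
lemma chartAt_of_differentiable {φ : An.Pts (ProjSpace n R) → ℂ} {p : E n N} (hp : p.1 ≠ 0)
    (h : ∀ᶠ q in 𝓝 p, DifferentiableAt ℂ (fun q => φ (pt c q)) q) : ChartAt φ (pt c p) := by
  obtain ⟨i, hi⟩ := Function.ne_iff.1 hp
  have hi' : p.1 i ≠ 0 := hi
  have hmem := (pt_mem_iff (R := R) c hp i).2 hi'
  have hs : split (Sum.elim p.1 p.2) = p := by rw [split_apply]; simp
  have key : ChartAt (fun x => (fun v : Fin (n + 1) ⊕ Fin N → ℂ => φ (pt c (split v)))
      (fun t => (Sum.elim (fun j => fun x => (sig c i (p.1 i) x).1 j)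
        (fun k => fun x => (sig c i (p.1 i) x).2 k) t) x)) (pt c p) := by
    refine ChartAt.comp (ι := Fin (n + 1) ⊕ Fin N) (φ := Sum.elim
      (fun j => fun x => (sig c i (p.1 i) x).1 j) (fun k => fun x => (sig c i (p.1 i) x).2 k)) ?_
      (fun v => φ (pt c (split v))) ?_
    · rintro (j | k)
      · exact chartAt_sig_fst c _ i hmem _ j
      · exact chartAt_sig_snd c _ i hmem _ k
    · have e1 : (fun t => (Sum.elim (fun j => fun x => (sig c i (p.1 i) x).1 j)
          (fun k => fun x => (sig c i (p.1 i) x).2 k) t) (pt c p : An.Pts (ProjSpace n R))) =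
          Sum.elim p.1 p.2 := by
        funext t
        have := sig_pt (R := R) c i hi'
        rcases t with j | k
        · exact congrFun (congrArg Prod.fst this) j
        · exact congrFun (congrArg Prod.snd this) k
      rw [e1]
      have h3 : Tendsto (split : (Fin (n + 1) ⊕ Fin N → ℂ) → E n N) (𝓝 (Sum.elim p.1 p.2)) (𝓝 p) := by
        have := (split (n := n) (N := N)).continuous.tendsto (Sum.elim p.1 p.2)
        rwa [hs] at this
      filter_upwards [h3.eventually h] with v hv
      exact DifferentiableAt.comp (g := fun q : E n N => φ (pt c q)) v hv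
        (split (n := n) (N := N)).differentiableAt
  refine key.congr ?_
  filter_upwards [(An.Pts.isOpen_preimage_pt
    (Dp (MvPolynomial.X i : MvPolynomial (Fin (n + 1)) R))).mem_nhds hmem] with x hx
  have e2 : pt c (split (fun t => (Sum.elim (fun j => fun x => (sig c i (p.1 i) x).1 j)
        (fun k => fun x => (sig c i (p.1 i) x).2 k) t) x)) = x := by
    have : split (fun t => (Sum.elim (fun j => fun x => (sig c i (p.1 i) x).1 j)
        (fun k => fun x => (sig c i (p.1 i) x).2 k) t) x) = sig c i (p.1 i) x := by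
      rw [split_apply]; rfl
    rw [this]
    exact pt_sig c x i hx _ hi'
  change φ x = φ (pt c (split _))
  rw [e2]

/-- Holomorphic near `pt p` iff the pull-back is complex-differentiable near `p`. -/
theorem chartAt_iff {φ : An.Pts (ProjSpace n R) → ℂ} {p : E n N} (hp : p.1 ≠ 0) :
    ChartAt φ (pt c p) ↔ ∀ᶠ q in 𝓝 p, DifferentiableAt ℂ (fun q => φ (pt c q)) q := by
  refine ⟨fun h => ?_, chartAt_of_differentiable c hp⟩
  filter_upwards [(continuousAt_pt c hp).eventually h.eventually, eventually_ne0 hp] with q hq hq0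
  exact differentiableAt_of_chartAt c hq0 hq

lemma isOpen_cone (W : Opens (An.top (ProjSpace n R))) :
    IsOpen ((homCoords (n := n) (R := R) c).cone W) := by
  have h := (homCoords (n := n) (R := R) c).continuousOn_pt
  exact h.isOpen_inter_preimage isOpen_fst_ne W.isOpen

/-- Holomorphic functions are the differentiable functions on the cone. -/
theorem holPred_iff {W : Opens (An.top (ProjSpace n R))} (g : W → ℂ) :
    (An.holPred (ProjSpace n R)).pred g ↔
      DifferentiableOn ℂ (fun q : E n N => ext0 W g (pt c q))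
        ((homCoords (n := n) (R := R) c).cone W) := by
  rw [Groth.Agent.Gaga.H990.ChartAt.holPred_iff]
  constructor
  · rintro h p ⟨hp, hpW⟩
    exact (differentiableAt_of_chartAt c hp (h _ hpW)).differentiableWithinAt
  · intro h x hx
    obtain ⟨p, hp, rfl⟩ := exists_pt (n := n) (R := R) c x
    refine chartAt_of_differentiable c hp ?_
    have hm : (homCoords (n := n) (R := R) c).cone W ∈ 𝓝 p :=
      (isOpen_cone c W).mem_nhds ⟨hp, hx⟩
    filter_upwards [eventually_mem_nhds_iff.2 hm] with q hq
    exact (h q (mem_of_mem_nhds hq)).differentiableAt hq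

end Groth.Agent.Gaga.H988.PnHol
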