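import Groth.Prelude.Def_AnPts
import Groth.Prelude.Def_CohB1
import Groth.Agent.An.H863.PtsCont
import Groth.Agent.CohqB.P1Charts

/-!
# Complex points of projective space over a `ℂ`-algebra

`P = P^n_R`, `R` a `ℂ`-algebra, viewed over `Spec ℂ`.

* `pnt χ z`: the complex point with homogeneous coordinates `z ≠ 0` over the point `χ : R → ℂ` of the base;
* `ev_pnt`: the value of a fraction at this point;
* `pnt_surjective`, `pnt_eq_iff`.
-/

set_option autoImplicit false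
open CategoryTheory AlgebraicGeometry Topology TopologicalSpace Opposite Filter
open HomogeneousLocalization CohB1

noncomputable section

namespace Groth.Agent.Gaga.H988.PnPts

variable {n : ℕ} {R : Type} [CommRing R] [Algebra ℂ R]

/-- The structure morphism of `P^n_R` over `Spec ℂ` is the standard one. -/
class StdOver (n : ℕ) (R : Type) [CommRing R] [Algebra ℂ R] [(ProjSpace n R).Over An.SC] : Prop where
  eq : (ProjSpace n R ↘ An.SC) =
    ProjSpace.toSpec n R ≫ Spec.map (CommRingCat.ofHom (algebraMap ℂ R))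

/-- Evaluation of polynomials at `(z, χ)`. -/
def evA (χ : R →ₐ[ℂ] ℂ) (z : Fin (n + 1) → ℂ) : MvPolynomial (Fin (n + 1)) R →+* ℂ :=
  MvPolynomial.eval₂Hom χ.toRingHom z

@[simp] lemma evA_X (χ : R →ₐ[ℂ] ℂ) (z : Fin (n + 1) → ℂ) (i : Fin (n + 1)) :
    evA χ z (MvPolynomial.X i) = z i := by simp [evA]

@[simp] lemma evA_C (χ : R →ₐ[ℂ] ℂ) (z : Fin (n + 1) → ℂ) (r : R) :
    evA χ z (MvPolynomial.C r) = χ r := by simp [evA]

lemma evA_smul (χ : R →ₐ[ℂ] ℂ) (z : Fin (n + 1) → ℂ) (c : ℂ) {m : ℕ}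
    {a : MvPolynomial (Fin (n + 1)) R} (ha : a ∈ polyGrading n R m) :
    evA χ (c • z) a = c ^ m * evA χ z a := by
  exact Groth.Agent.CohqB.ProjBC.eval₂_homogeneous χ.toRingHom z c m a
    ((MvPolynomial.mem_homogeneousSubmodule _ _).1 ha)

/-- Evaluation of degree zero fractions with denominator a power of `s`. -/
def chi (χ : R →ₐ[ℂ] ℂ) (z : Fin (n + 1) → ℂ) (s : MvPolynomial (Fin (n + 1)) R)
    (hs : evA χ z s ≠ 0) : Away (polyGrading n R) s →+* ℂ :=
  (IsLocalization.Away.lift (S := Localization.Away s) s (g := evA χ z)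
    (isUnit_iff_ne_zero.2 hs)).comp
    (algebraMap (Away (polyGrading n R) s) (Localization.Away s))

lemma lift_mk (χ : R →ₐ[ℂ] ℂ) (z : Fin (n + 1) → ℂ) (s : MvPolynomial (Fin (n + 1)) R)
    (hs : evA χ z s ≠ 0) (a : MvPolynomial (Fin (n + 1)) R) (k : ℕ) :
    IsLocalization.Away.lift (S := Localization.Away s) s (g := evA χ z)
      (isUnit_iff_ne_zero.2 hs) (Localization.mk a ⟨s ^ k, k, rfl⟩) =
      evA χ z a / evA χ z s ^ k := by
  rw [eq_div_iff (pow_ne_zero k hs), ← map_pow,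
    ← IsLocalization.Away.lift_eq (S := Localization.Away s) s (g := evA χ z)
      (isUnit_iff_ne_zero.2 hs) (s ^ k),
    ← IsLocalization.Away.lift_eq (S := Localization.Away s) s (g := evA χ z)
      (isUnit_iff_ne_zero.2 hs) a, ← map_mul]
  congr 1
  rw [← Localization.mk_one_eq_algebraMap, ← Localization.mk_one_eq_algebraMap,
    Localization.mk_mul, mul_one]
  rw [Localization.mk_eq_mk_iff, Localization.r_iff_exists]
  exact ⟨1, by simp [mul_comm]⟩

lemma chi_mk (χ : R →ₐ[ℂ] ℂ) (z : Fin (n + 1) → ℂ) {s : MvPolynomial (Fin (n + 1)) R}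
    (hs : evA χ z s ≠ 0) {m : ℕ} (hm : s ∈ polyGrading n R m) (k : ℕ)
    (a : MvPolynomial (Fin (n + 1)) R) (ha : a ∈ polyGrading n R (k • m)) :
    chi χ z s hs (Away.mk _ hm k a ha) = evA χ z a / evA χ z s ^ k := by
  change IsLocalization.Away.lift (S := Localization.Away s) s (g := evA χ z)
      (isUnit_iff_ne_zero.2 hs) (Away.mk _ hm k a ha).val = _
  rw [Away.val_mk]
  exact lift_mk χ z s hs a k

/-- Compatibility of the evaluations with the passage from `D₊(s)` to `D₊(st)`. -/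
lemma chi_awayMap (χ : R →ₐ[ℂ] ℂ) (z : Fin (n + 1) → ℂ) {s t x : MvPolynomial (Fin (n + 1)) R}
    {m' : ℕ} (ht : t ∈ polyGrading n R m') (hx : x = s * t)
    (h1 : evA χ z s ≠ 0) (h2 : evA χ z x ≠ 0) :
    (chi χ z x h2).comp (awayMap (polyGrading n R) ht hx) = chi χ z s h1 := by
  ext q
  change IsLocalization.Away.lift (S := Localization.Away x) x (g := evA χ z)
      (isUnit_iff_ne_zero.2 h2) (awayMap (polyGrading n R) ht hx q).val =
    IsLocalization.Away.lift (S := Localization.Away s) s (g := evA χ z)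
      (isUnit_iff_ne_zero.2 h1) q.val
  rw [val_awayMap]
  have h : (IsLocalization.Away.lift (S := Localization.Away x) x (g := evA χ z)
      (isUnit_iff_ne_zero.2 h2)).comp
        (Localization.awayLift (algebraMap _ (Localization.Away x)) s
          (isUnit_of_dvd_unit (map_dvd _ ⟨t, hx⟩) (IsLocalization.Away.algebraMap_isUnit x))) =
      IsLocalization.Away.lift (S := Localization.Away s) s (g := evA χ z)
        (isUnit_iff_ne_zero.2 h1) := by
    apply IsLocalization.ringHom_ext (M := Submonoid.powers s)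
    ext r
    all_goals simp
  exact congr($h q.val)

/-- Evaluation of constants. -/
lemma chi_fromZero (χ : R →ₐ[ℂ] ℂ) (z : Fin (n + 1) → ℂ) {s : MvPolynomial (Fin (n + 1)) R}
    (hs : evA χ z s ≠ 0) (r : R) :
    chi χ z s hs (fromZeroRingHom (polyGrading n R) _ (algebraMap R (polyGrading n R 0) r)) =
      χ r := by
  change IsLocalization.Away.lift (S := Localization.Away s) s (g := evA χ z)
      (isUnit_iff_ne_zero.2 hs)
      (fromZeroRingHom (polyGrading n R) _ (algebraMap R (polyGrading n R 0) r)).val = _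
  have h1 : (fromZeroRingHom (polyGrading n R) (Submonoid.powers s)
      (algebraMap R (polyGrading n R 0) r)).val =
      algebraMap (MvPolynomial (Fin (n + 1)) R) (Localization.Away s) (MvPolynomial.C r) := by
    change (HomogeneousLocalization.mk _).val = _
    rw [HomogeneousLocalization.val_mk]
    exact Localization.mk_one_eq_algebraMap _
  rw [h1, IsLocalization.Away.lift_eq, evA_C]

/-- `Spec R[X]_(s) → P^n_R`, typed with `ProjSpace`. -/
def aw {s : MvPolynomial (Fin (n + 1)) R} {m : ℕ} (hm : s ∈ polyGrading n R m) (h0 : 0 < m) :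
    Spec (CommRingCat.of (Away (polyGrading n R) s)) ⟶ ProjSpace n R :=
  Proj.awayι (polyGrading n R) s hm h0

/-- `D₊(s)`, typed with `ProjSpace`. -/
def Dp (s : MvPolynomial (Fin (n + 1)) R) : (ProjSpace n R).Opens :=
  Proj.basicOpen (polyGrading n R) s

/-- Degree zero fractions as sections over `D₊(s)`, typed with `ProjSpace`. -/
def sec (s : MvPolynomial (Fin (n + 1)) R) :
    CommRingCat.of (Away (polyGrading n R) s) ⟶ Γ(ProjSpace n R, Dp s) :=
  Proj.awayToSection (polyGrading n R) s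

instance {s : MvPolynomial (Fin (n + 1)) R} {m : ℕ} (hm : s ∈ polyGrading n R m)
    (h0 : 0 < m) : IsOpenImmersion (aw hm h0) :=
  inferInstanceAs (IsOpenImmersion (Proj.awayι (polyGrading n R) s hm h0))

lemma opensRange_aw {s : MvPolynomial (Fin (n + 1)) R} {m : ℕ} (hm : s ∈ polyGrading n R m)
    (h0 : 0 < m) : (aw hm h0).opensRange = Dp s :=
  Proj.opensRange_awayι (polyGrading n R) s hm h0

lemma preimage_aw {s : MvPolynomial (Fin (n + 1)) R} {m : ℕ} (hm : s ∈ polyGrading n R m)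
    (h0 : 0 < m) : aw hm h0 ⁻¹ᵁ Dp s = ⊤ := by
  rw [← opensRange_aw hm h0, Scheme.Hom.preimage_opensRange]

lemma sec_aw {s : MvPolynomial (Fin (n + 1)) R} {m : ℕ} (hm : s ∈ polyGrading n R m)
    (h0 : 0 < m) : sec s ≫ (aw hm h0).appLE (Dp s) ⊤ (preimage_aw hm h0).ge =
      (Scheme.ΓSpecIso (CommRingCat.of (Away (polyGrading n R) s))).inv :=
  Groth.Agent.CohqB.P1Charts.awayToSection_awayι (polyGrading n R) hm h0

lemma aw_toSpec {s : MvPolynomial (Fin (n + 1)) R} {m : ℕ} (hm : s ∈ polyGrading n R m)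
    (h0 : 0 < m) : aw hm h0 ≫ ProjSpace.toSpec n R =
      Spec.map (CommRingCat.ofHom ((fromZeroRingHom (polyGrading n R) (Submonoid.powers s)).comp
        (algebraMap R (polyGrading n R 0)))) := by
  have h3 := Proj.awayι_toSpecZero (polyGrading n R) s hm h0
  have h4 : aw hm h0 ≫ ProjSpace.toSpec n R =
    (Proj.awayι (polyGrading n R) s hm h0 ≫ Proj.toSpecZero (polyGrading n R)) ≫
    Spec.map (CommRingCat.ofHom (algebraMap R (polyGrading n R 0))) := (Category.assoc _ _ _).symm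
  rw [h4, h3, ← Spec.map_comp]
  rfl

lemma pntAux_over (χ : R →ₐ[ℂ] ℂ) (z : Fin (n + 1) → ℂ)
    {s : MvPolynomial (Fin (n + 1)) R} {m : ℕ} (hm : s ∈ polyGrading n R m) (h0 : 0 < m)
    (hs : evA χ z s ≠ 0) :
    (Spec.map (CommRingCat.ofHom (chi χ z s hs)) ≫ aw hm h0) ≫
      ProjSpace.toSpec n R = Spec.map (CommRingCat.ofHom χ.toRingHom) := by
  rw [Category.assoc, aw_toSpec, ← Spec.map_comp, ← CommRingCat.ofHom_comp]
  congr 2
  ext r
  exact chi_fromZero χ z hs r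

/-- The complex point with homogeneous coordinates `z`, read on the chart `D₊(s)`. -/
def pntAux [(ProjSpace n R).Over An.SC] [StdOver n R] (χ : R →ₐ[ℂ] ℂ) (z : Fin (n + 1) → ℂ)
    {s : MvPolynomial (Fin (n + 1)) R} {m : ℕ} (hm : s ∈ polyGrading n R m) (h0 : 0 < m)
    (hs : evA χ z s ≠ 0) : An.Pts (ProjSpace n R) :=
  ⟨Spec.map (CommRingCat.ofHom (chi χ z s hs)) ≫ aw hm h0, by
    rw [StdOver.eq (n := n) (R := R), ← Category.assoc, pntAux_over, ← Spec.map_comp,
      ← Spec.map_id]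
    congr 1
    ext c
    exact χ.commutes c⟩

section

variable [(ProjSpace n R).Over An.SC] [StdOver n R] (χ : R →ₐ[ℂ] ℂ) (z : Fin (n + 1) → ℂ)

lemma pntAux_eq_mul {s t : MvPolynomial (Fin (n + 1)) R} {m m' : ℕ}
    (hm : s ∈ polyGrading n R m) (h0 : 0 < m) (hs : evA χ z s ≠ 0)
    (hm' : t ∈ polyGrading n R m') (ht : evA χ z t ≠ 0) :
    pntAux χ z hm h0 hs = pntAux χ z (s := s * t) (m := m + m')
      (SetLike.mul_mem_graded hm hm') (h0.trans_le (m.le_add_right m'))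
      (by rw [map_mul]; exact mul_ne_zero hs ht) := by
  apply Subtype.ext
  change Spec.map _ ≫ Proj.awayι (polyGrading n R) s hm h0 = Spec.map _ ≫ Proj.awayι _ _ _ _
  have h2 : evA χ z (s * t) ≠ 0 := by rw [map_mul]; exact mul_ne_zero hs ht
  have h := Proj.SpecMap_awayMap_awayι (polyGrading n R) hm h0 hm' (rfl : s * t = s * t)
  rw [← h, ← Category.assoc, ← Spec.map_comp, ← CommRingCat.ofHom_comp,
    chi_awayMap χ z hm' rfl hs h2]

lemma pntAux_congr {s t : MvPolynomial (Fin (n + 1)) R} {m m' : ℕ} (hst : s = t) (hmm : m = m')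
    (hm : s ∈ polyGrading n R m) (h0 : 0 < m) (hs : evA χ z s ≠ 0)
    (hm' : t ∈ polyGrading n R m') (h0' : 0 < m') (ht : evA χ z t ≠ 0) :
    pntAux χ z hm h0 hs = pntAux χ z hm' h0' ht := by
  subst hst hmm; rfl

/-- The point does not depend on the chart. -/
lemma pntAux_eq {s t : MvPolynomial (Fin (n + 1)) R} {m m' : ℕ}
    (hm : s ∈ polyGrading n R m) (h0 : 0 < m) (hs : evA χ z s ≠ 0)
    (hm' : t ∈ polyGrading n R m') (h0' : 0 < m') (ht : evA χ z t ≠ 0) :
    pntAux χ z hm h0 hs = pntAux χ z hm' h0' ht := by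
  rw [pntAux_eq_mul χ z hm h0 hs hm' ht, pntAux_eq_mul χ z hm' h0' ht hm hs]
  exact pntAux_congr χ z (mul_comm s t) (add_comm m m') _ _ _ _ _ _

/-- The complex point of `P^n_R` with homogeneous coordinates `z` over the point `χ`. -/
def pnt (hz : z ≠ 0) : An.Pts (ProjSpace n R) :=
  pntAux χ z (s := MvPolynomial.X (Function.ne_iff.1 hz).choose) (m := 1)
    (Groth.Agent.CohqB.ProjBC.X_mem n _) one_pos
    (by rw [evA_X]; exact (Function.ne_iff.1 hz).choose_spec)

lemma pnt_eq (hz : z ≠ 0) {s : MvPolynomial (Fin (n + 1)) R} {m : ℕ}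
    (hm : s ∈ polyGrading n R m) (h0 : 0 < m) (hs : evA χ z s ≠ 0) :
    pnt χ z hz = pntAux χ z hm h0 hs := pntAux_eq χ z _ _ _ _ _ _

/-- The image of the point in the base. -/
lemma pnt_toSpec (hz : z ≠ 0) :
    (pnt χ z hz).1 ≫ ProjSpace.toSpec n R = Spec.map (CommRingCat.ofHom χ.toRingHom) :=
  pntAux_over χ z _ _ _

lemma pntAux_mem {s : MvPolynomial (Fin (n + 1)) R} {m : ℕ}
    (hm : s ∈ polyGrading n R m) (h0 : 0 < m) (hs : evA χ z s ≠ 0) :
    (pntAux χ z hm h0 hs).pt ∈ Dp s := by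
  rw [← opensRange_aw hm h0]
  exact ⟨Spec.map (CommRingCat.ofHom (chi χ z s hs)) An.cpt,
    (Scheme.Hom.comp_apply _ _ _).symm⟩

lemma ev_pntAux {s : MvPolynomial (Fin (n + 1)) R} {m : ℕ}
    (hm : s ∈ polyGrading n R m) (h0 : 0 < m) (hs : evA χ z s ≠ 0)
    (h : (pntAux χ z hm h0 hs).pt ∈ Dp s) (q : Away (polyGrading n R) s) :
    (pntAux χ z hm h0 hs).ev (Dp s) h ((sec s).hom q) = chi χ z s hs q := by
  have key : sec s ≫ (Spec.map (CommRingCat.ofHom (chi χ z s hs)) ≫ aw hm h0).appLE (Dp s) ⊤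
      (An.Pts.top_le_preimage (pntAux χ z hm h0 hs) h) ≫
        (Scheme.ΓSpecIso (CommRingCat.of ℂ)).hom = CommRingCat.ofHom (chi χ z s hs) := by
    rw [← Scheme.Hom.appLE_comp_appLE _ _ (Dp s) ⊤ ⊤ (preimage_aw hm h0).ge le_top,
      Category.assoc, reassoc_of% (sec_aw hm h0)]
    have h3 : (Spec.map (CommRingCat.ofHom (chi χ z s hs))).appLE ⊤ ⊤ le_top =
        (Spec.map (CommRingCat.ofHom (chi χ z s hs))).appTop := by
      simp [Scheme.Hom.appLE, Scheme.Hom.appTop]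
    rw [h3, Scheme.ΓSpecIso_naturality, Iso.inv_hom_id_assoc]
  exact congr($(key).hom q)

lemma pntAux_mem_iff {s t : MvPolynomial (Fin (n + 1)) R} {m m' : ℕ}
    (hm : s ∈ polyGrading n R m) (h0 : 0 < m) (hs : evA χ z s ≠ 0)
    (hm' : t ∈ polyGrading n R m') (h0' : 0 < m') :
    (pntAux χ z hm h0 hs).pt ∈ Dp t ↔ evA χ z t ≠ 0 := by
  have h := Proj.awayι_preimage_basicOpen (polyGrading n R) hm h0 hm' h0'
  have h1 : (pntAux χ z hm h0 hs).pt =
      aw hm h0 (Spec.map (CommRingCat.ofHom (chi χ z s hs)) An.cpt) :=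
    Scheme.Hom.comp_apply _ _ _
  rw [h1]
  change Spec.map (CommRingCat.ofHom (chi χ z s hs)) An.cpt ∈ aw hm h0 ⁻¹ᵁ Dp t ↔ _
  have h2 : aw hm h0 ⁻¹ᵁ Dp t = PrimeSpectrum.basicOpen (Away.isLocalizationElem hm hm') := h
  rw [h2]
  change Away.isLocalizationElem hm hm' ∉ Ideal.comap (chi χ z s hs) An.cpt.asIdeal ↔ _
  rw [Ideal.mem_comap]
  have h3 : An.cpt.asIdeal = ⊥ := by
    have := An.cpt.isPrime
    exact (Ideal.eq_bot_or_top _).resolve_right this.ne_top
  rw [h3, Ideal.mem_bot]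
  have h4 : chi χ z s hs (Away.isLocalizationElem hm hm') = evA χ z (t ^ m) / evA χ z s ^ m' :=
    chi_mk χ z hs hm m' (t ^ m) _
  rw [h4, map_pow, div_eq_zero_iff, not_or]
  constructor
  · rintro ⟨h5, -⟩ h6
    exact h5 (by rw [h6, zero_pow h0.ne'])
  · intro h5
    exact ⟨pow_ne_zero _ h5, pow_ne_zero _ hs⟩

lemma pnt_mem_iff (hz : z ≠ 0) {t : MvPolynomial (Fin (n + 1)) R} {m' : ℕ}
    (hm' : t ∈ polyGrading n R m') (h0' : 0 < m') :
    (pnt χ z hz).pt ∈ Dp t ↔ evA χ z t ≠ 0 :=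
  pntAux_mem_iff χ z _ _ _ hm' h0'

/-- Value of a fraction `a / t ^ k` at the point with homogeneous coordinates `z`. -/
lemma ev_pnt (hz : z ≠ 0) {t : MvPolynomial (Fin (n + 1)) R} {m : ℕ}
    (hm : t ∈ polyGrading n R m) (h0 : 0 < m) (h : (pnt χ z hz).pt ∈ Dp t) (k : ℕ)
    (a : MvPolynomial (Fin (n + 1)) R) (ha : a ∈ polyGrading n R (k • m)) :
    (pnt χ z hz).ev (Dp t) h ((sec t).hom (Away.mk _ hm k a ha)) =
      evA χ z a / evA χ z t ^ k := by
  have ht := (pnt_mem_iff χ z hz hm h0).1 h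
  have e := pnt_eq χ z hz hm h0 ht
  rw [Groth.Agent.An.H863.PtsBasic.ev_congr e, ev_pntAux, chi_mk]

/-- Value of an arbitrary section over `D₊(t)`. -/
lemma ev_pnt' (hz : z ≠ 0) {t : MvPolynomial (Fin (n + 1)) R} {m : ℕ}
    (hm : t ∈ polyGrading n R m) (h0 : 0 < m) (h : (pnt χ z hz).pt ∈ Dp t)
    (q : Away (polyGrading n R) t) :
    (pnt χ z hz).ev (Dp t) h ((sec t).hom q) =
      chi χ z t ((pnt_mem_iff χ z hz hm h0).1 h) q := by
  have ht := (pnt_mem_iff χ z hz hm h0).1 h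
  have e := pnt_eq χ z hz hm h0 ht
  rw [Groth.Agent.An.H863.PtsBasic.ev_congr e, ev_pntAux]

lemma isIso_sec {s : MvPolynomial (Fin (n + 1)) R} {m : ℕ} (hm : s ∈ polyGrading n R m)
    (h0 : 0 < m) : IsIso (sec s) := by
  have h := Proj.basicOpenIsoAway_hom (polyGrading n R) s hm h0
  change IsIso (Proj.awayToSection (polyGrading n R) s)
  rw [← h]
  infer_instance

/-- The image of a complex point in the base. -/
def base (x : An.Pts (ProjSpace n R)) : R →ₐ[ℂ] ℂ where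
  toRingHom := (Spec.preimage (x.1 ≫ ProjSpace.toSpec n R)).hom
  commutes' c := by
    have h1 : CommRingCat.ofHom (algebraMap ℂ R) ≫ Spec.preimage (x.1 ≫ ProjSpace.toSpec n R) =
        𝟙 (CommRingCat.of ℂ) := by
      apply Spec.map_injective
      rw [Spec.map_comp, Spec.map_preimage, Spec.map_id, Category.assoc,
        ← StdOver.eq (n := n) (R := R)]
      exact x.2
    exact congr($(h1).hom c)

lemma base_spec (x : An.Pts (ProjSpace n R)) :
    Spec.map (CommRingCat.ofHom (base x).toRingHom) = x.1 ≫ ProjSpace.toSpec n R :=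
  Spec.map_preimage _

@[simp] lemma base_pnt (hz : z ≠ 0) : base (pnt χ z hz) = χ := by
  have h1 := base_spec (pnt χ z hz)
  rw [pnt_toSpec] at h1
  have h2 := Spec.map_injective h1
  ext r
  exact congr($(h2).hom r)

omit [StdOver n R] in
/-- A complex point in `D₊(s)` factors through the chart. -/
lemma exists_factor (x : An.Pts (ProjSpace n R)) {s : MvPolynomial (Fin (n + 1)) R} {m : ℕ}
    (hm : s ∈ polyGrading n R m) (h0 : 0 < m) (h : x.pt ∈ Dp s) :
    ∃ φ : CommRingCat.of (Away (polyGrading n R) s) ⟶ CommRingCat.of ℂ,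
      x.1 = Spec.map φ ≫ aw hm h0 ∧ ∀ q, x.ev (Dp s) h ((sec s).hom q) = φ.hom q := by
  have hr : Set.range x.1 ⊆ Set.range (aw hm h0) := by
    rintro _ ⟨p, rfl⟩
    have h1 : x.1 p ∈ (aw hm h0).opensRange := by
      rw [opensRange_aw hm h0, An.eq_cpt p]
      exact h
    exact h1
  obtain ⟨φ, hφ⟩ := Spec.map_surjective (IsOpenImmersion.lift (aw hm h0) x.1 hr)
  have hx : x.1 = Spec.map φ ≫ aw hm h0 := by
    rw [hφ, IsOpenImmersion.lift_fac]
  refine ⟨φ, hx, ?_⟩
  obtain ⟨x, hx'⟩ := x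
  change x = _ at hx
  subst hx
  intro q
  have key : sec s ≫ (Spec.map φ ≫ aw hm h0).appLE (Dp s) ⊤
      (An.Pts.top_le_preimage ⟨Spec.map φ ≫ aw hm h0, hx'⟩ h) ≫
        (Scheme.ΓSpecIso (CommRingCat.of ℂ)).hom = φ := by
    rw [← Scheme.Hom.appLE_comp_appLE _ _ (Dp s) ⊤ ⊤ (preimage_aw hm h0).ge le_top,
      Category.assoc, reassoc_of% (sec_aw hm h0)]
    have h3 : (Spec.map φ).appLE ⊤ ⊤ le_top = (Spec.map φ).appTop := by
      simp [Scheme.Hom.appLE, Scheme.Hom.appTop]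
    rw [h3, Scheme.ΓSpecIso_naturality, Iso.inv_hom_id_assoc]
  exact congr($(key).hom q)

omit [StdOver n R] in
lemma ext_of_ev {x y : An.Pts (ProjSpace n R)} {s : MvPolynomial (Fin (n + 1)) R} {m : ℕ}
    (hm : s ∈ polyGrading n R m) (h0 : 0 < m) (hx : x.pt ∈ Dp s) (hy : y.pt ∈ Dp s)
    (h : ∀ q, x.ev (Dp s) hx ((sec s).hom q) = y.ev (Dp s) hy ((sec s).hom q)) : x = y := by
  obtain ⟨φ, h1, h2⟩ := exists_factor x hm h0 hx
  obtain ⟨ψ, h3, h4⟩ := exists_factor y hm h0 hy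
  apply Subtype.ext
  rw [h1, h3]
  have : φ = ψ := by
    ext q
    rw [← h2, ← h4, h]
  rw [this]

/-- The value of a constant `r : R` on `D₊(s)`. -/
lemma ev_const (x : An.Pts (ProjSpace n R)) {s : MvPolynomial (Fin (n + 1)) R} {m : ℕ}
    (hm : s ∈ polyGrading n R m) (h0 : 0 < m) (h : x.pt ∈ Dp s) (r : R) :
    x.ev (Dp s) h ((sec s).hom (fromZeroRingHom (polyGrading n R) (Submonoid.powers s)
      (algebraMap R (polyGrading n R 0) r))) = base x r := by
  obtain ⟨φ, h1, h2⟩ := exists_factor x hm h0 h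
  rw [h2]
  have h3 := base_spec x
  rw [h1, Category.assoc, aw_toSpec, ← Spec.map_comp] at h3
  exact congr($(Spec.map_injective h3).hom r).symm

/-- The value of a fraction at an arbitrary point, through the chart `D₊(X_i)`. -/
lemma ev_chartHom (x : An.Pts (ProjSpace n R)) (i : Fin (n + 1))
    (h : x.pt ∈ Dp (MvPolynomial.X i : MvPolynomial (Fin (n + 1)) R))
    (a : MvPolynomial (Fin (n + 1)) R) :
    x.ev (Dp (MvPolynomial.X i)) h ((sec (MvPolynomial.X i)).hom
      (Groth.Agent.CohqB.ProjBC.chartHom n i a)) =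
      evA (base x) (fun j => x.ev (Dp (MvPolynomial.X i)) h ((sec (MvPolynomial.X i)).hom
        (Groth.Agent.CohqB.ProjBC.chartHom n i (MvPolynomial.X j)))) a := by
  obtain ⟨φ, h1, h2⟩ := exists_factor x (Groth.Agent.CohqB.ProjBC.X_mem n i) one_pos h
  simp only [h2]
  have h3 : (φ.hom.comp (Groth.Agent.CohqB.ProjBC.chartHom n i)) =
      evA (base x) (fun j => φ.hom (Groth.Agent.CohqB.ProjBC.chartHom n i (MvPolynomial.X j))) := by
    apply MvPolynomial.ringHom_ext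
    · intro r
      rw [RingHom.comp_apply, Groth.Agent.CohqB.ProjBC.chartHom_C, evA_C]
      rw [← h2]
      exact ev_const x (Groth.Agent.CohqB.ProjBC.X_mem n i) one_pos h r
    · intro j
      rw [RingHom.comp_apply, evA_X]
  exact congr($(h3) a)

/-- Every complex point has homogeneous coordinates. -/
theorem exists_pnt (x : An.Pts (ProjSpace n R)) (i : Fin (n + 1))
    (h : x.pt ∈ Dp (MvPolynomial.X i : MvPolynomial (Fin (n + 1)) R)) :
    ∃ (z : Fin (n + 1) → ℂ) (hz : z ≠ 0), z i = 1 ∧ x = pnt (base x) z hz := by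
  let z : Fin (n + 1) → ℂ := fun j => x.ev (Dp (MvPolynomial.X i)) h ((sec (MvPolynomial.X i)).hom
        (Groth.Agent.CohqB.ProjBC.chartHom n i (MvPolynomial.X j)))
  have hzi : z i = 1 := by
    change x.ev _ h ((sec _).hom (Groth.Agent.CohqB.ProjBC.chartHom n i (MvPolynomial.X i))) = 1
    rw [Groth.Agent.CohqB.ProjBC.chartHom_X_self, map_one, Groth.Agent.An.H863.PtsBasic.ev_one]
  have hz : z ≠ 0 := fun h0 => by
    rw [h0] at hzi
    exact zero_ne_one hzi
  refine ⟨z, hz, hzi, ?_⟩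
  have hmem : (pnt (base x) z hz).pt ∈ Dp (MvPolynomial.X i : MvPolynomial (Fin (n + 1)) R) := by
    rw [pnt_mem_iff _ _ hz (Groth.Agent.CohqB.ProjBC.X_mem n i) one_pos, evA_X, hzi]
    exact one_ne_zero
  refine ext_of_ev (Groth.Agent.CohqB.ProjBC.X_mem n i) one_pos h hmem fun q => ?_
  obtain ⟨a, rfl⟩ := Groth.Agent.CohqB.ProjBC.chartHom_surjective n i q
  rw [ev_chartHom, ev_chartHom, base_pnt]
  congr 1
  congr 1
  funext j
  have h5 : Groth.Agent.CohqB.ProjBC.chartHom n i (MvPolynomial.X j) =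
      Away.mk _ (Groth.Agent.CohqB.ProjBC.X_mem (A := R) n i) 1 (MvPolynomial.X j)
        (by simpa using Groth.Agent.CohqB.ProjBC.X_mem n j) :=
    Groth.Agent.CohqB.ProjBC.chartHom_X n i j
  rw [h5, ev_pnt _ _ hz (Groth.Agent.CohqB.ProjBC.X_mem n i) one_pos hmem, evA_X, evA_X, hzi,
    pow_one, div_one, ← h5]

lemma exists_mem_Dp (x : An.Pts (ProjSpace n R)) :
    ∃ i : Fin (n + 1), x.pt ∈ Dp (MvPolynomial.X i : MvPolynomial (Fin (n + 1)) R) := by
  have h := Groth.Agent.CohqB.P1Charts.iSup_D n R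
  have h1 : x.pt ∈ (⊤ : (ProjSpace n R).Opens) := trivial
  rw [← h] at h1
  exact Opens.mem_iSup.1 h1

theorem exists_pnt' (x : An.Pts (ProjSpace n R)) :
    ∃ (z : Fin (n + 1) → ℂ) (hz : z ≠ 0), x = pnt (base x) z hz := by
  obtain ⟨i, h⟩ := exists_mem_Dp x
  obtain ⟨z, hz, -, hx⟩ := exists_pnt x i h
  exact ⟨z, hz, hx⟩

lemma pnt_smul (hz : z ≠ 0) (c : ℂ) (hc : c • z ≠ 0) : pnt χ (c • z) hc = pnt χ z hz := by
  have hc0 : c ≠ 0 := fun h => hc (by rw [h, zero_smul])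
  obtain ⟨i, hi⟩ := Function.ne_iff.1 hz
  have h1 : (pnt χ z hz).pt ∈ Dp (MvPolynomial.X i : MvPolynomial (Fin (n + 1)) R) := by
    rw [pnt_mem_iff _ _ hz (Groth.Agent.CohqB.ProjBC.X_mem n i) one_pos, evA_X]
    exact hi
  have h2 : (pnt χ (c • z) hc).pt ∈ Dp (MvPolynomial.X i : MvPolynomial (Fin (n + 1)) R) := by
    rw [pnt_mem_iff _ _ hc (Groth.Agent.CohqB.ProjBC.X_mem n i) one_pos, evA_X]
    exact mul_ne_zero hc0 hi
  refine ext_of_ev (Groth.Agent.CohqB.ProjBC.X_mem n i) one_pos h2 h1 fun q => ?_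
  obtain ⟨k, a, ha, rfl⟩ := Away.mk_surjective _ (Groth.Agent.CohqB.ProjBC.X_mem (A := R) n i) q
  rw [ev_pnt _ _ hz (Groth.Agent.CohqB.ProjBC.X_mem n i) one_pos h1,
    ev_pnt _ _ hc (Groth.Agent.CohqB.ProjBC.X_mem n i) one_pos h2]
  have ha' : a ∈ polyGrading n R k := by rwa [smul_eq_mul, mul_one] at ha
  rw [evA_smul _ _ _ ha', evA_smul _ _ _ (Groth.Agent.CohqB.ProjBC.X_mem n i), pow_one, mul_pow,
    mul_div_mul_left _ _ (pow_ne_zero k hc0)]

lemma mem_smul_one (j : Fin (n + 1)) :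
    (MvPolynomial.X j : MvPolynomial (Fin (n + 1)) R) ∈ polyGrading n R (1 • 1) := by
  rw [one_smul]; exact Groth.Agent.CohqB.ProjBC.X_mem n j

/-- `X_j / X_i` on `D₊(X_i)`. -/
def ratio (i j : Fin (n + 1)) :
    Γ(ProjSpace n R, Dp (MvPolynomial.X i : MvPolynomial (Fin (n + 1)) R)) :=
  (sec (MvPolynomial.X i)).hom
    (Away.mk _ (Groth.Agent.CohqB.ProjBC.X_mem (A := R) n i) 1 (MvPolynomial.X j) (mem_smul_one j))

lemma ev_ratio (hz : z ≠ 0) (i : Fin (n + 1))
    (h : (pnt χ z hz).pt ∈ Dp (MvPolynomial.X i : MvPolynomial (Fin (n + 1)) R))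
    (j : Fin (n + 1)) :
    (pnt χ z hz).ev (Dp (MvPolynomial.X i)) h (ratio i j) = z j / z i := by
  rw [ratio, ev_pnt χ z hz (Groth.Agent.CohqB.ProjBC.X_mem n i) one_pos h, evA_X, evA_X, pow_one]

end

end Groth.Agent.Gaga.H988.PnPts
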